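import Cfsg.Agent.G2Oct.Form
import Cfsg.Agent.G2Oct.BaseChange
import Cfsg.Agent.G2Oct.Involution
import Mathlib.LinearAlgebra.Eigenspace.Semisimple
import Mathlib.LinearAlgebra.Semisimple
import Mathlib.FieldTheory.Separable
import Mathlib.LinearAlgebra.Eigenspace.Triangularizable

/-!
Over an algebraic closure a `p′`-element of `G₂` lies in the diagonal torus of `SL₃`.
-/

set_option autoImplicit false

namespace CfsgLib.G2Oct

open Matrix Cfsg.Lie Polynomial

theorem span_eigen_eq_top {K V : Type*} [Field K] [IsAlgClosed K] [AddCommGroup V] [Module K V]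
    [FiniteDimensional K V] (f : Module.End K V) {m : ℕ} (hm : (m : K) ≠ 0) (hf : f ^ m = 1) :
    ⊤ ≤ Submodule.span K {v : V | ∃ μ : K, f v = μ • v} := by
  have hss : f.IsSemisimple := Module.End.isSemisimple_of_squarefree_aeval_eq_zero
    (p := X ^ m - 1) (X_pow_sub_one_separable_iff.2 hm).squarefree (by simp [hf])
  rw [← hss.iSup_eigenspace_eq_top]
  exact iSup_le fun μ v hv => Submodule.subset_span ⟨μ, Module.End.mem_eigenspace_iff.1 hv⟩

variable {K : Type*} [Field K]

/-- The diagonal element of `SL₃`. -/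
def triDiag {a b c : K} (h : a * b * c = 1) : Matrix.SpecialLinearGroup (Fin 3) K :=
  ⟨diagonal ![a, b, c], by simp [det_diagonal, Fin.prod_univ_three, h]⟩

/-- The eigenvalues of a torus element on the octonions. -/
def wOct (a b c : K) : Fin 8 → K := ![1, a, b, c, a⁻¹, b⁻¹, c⁻¹, 1]

theorem g2Mat_triDiag {a b c : K} (h : a * b * c = 1) :
    g2Mat (sl3G2 (triDiag h)) = diagonal (wOct a b c) := by
  have ha : a⁻¹ = b * c := inv_eq_of_mul_eq_one_right (by linear_combination h)
  have hb : b⁻¹ = a * c := inv_eq_of_mul_eq_one_right (by linear_combination h)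
  have hc : c⁻¹ = a * b := inv_eq_of_mul_eq_one_right (by linear_combination h)
  have hadj : (diagonal ![a, b, c]).adjugate = diagonal ![b * c, a * c, a * b] := by
    rw [adjugate_fin_three]
    ext i j
    fin_cases i <;> fin_cases j <;> simp
  refine Matrix.ext_iff_mulVec.2 fun x => ?_
  rw [sl3G2_mulVec]
  conv_lhs => rw [← zMk_parts x, sl3Lin_apply, Matrix.SpecialLinearGroup.coe_inv]
  rw [show (triDiag h).1 = diagonal ![a, b, c] from rfl, hadj]
  funext i
  rw [mulVec_diagonal]
  fin_cases i <;>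
    simp [wOct, zMk, zA, zB, ha, hb, hc, Matrix.mulVec, dotProduct,
      Fin.sum_univ_three]

/-- Diagonalization inside `SL₃`. -/
theorem exists_sl3_diag [IsAlgClosed K] (M : Matrix.SpecialLinearGroup (Fin 3) K) {m : ℕ}
    (hm : (m : K) ≠ 0) (hM : M ^ m = 1) :
    ∃ (P : Matrix.SpecialLinearGroup (Fin 3) K) (a b c : K) (h : a * b * c = 1),
      P⁻¹ * M * P = triDiag h := by
  classical
  have hf : (Matrix.toLin' M.1) ^ m = 1 := by
    rw [← Matrix.toLin'_pow, ← Matrix.SpecialLinearGroup.coe_pow, hM,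
      Matrix.SpecialLinearGroup.coe_one, Matrix.toLin'_one]
    rfl
  have hs := span_eigen_eq_top _ hm hf
  let bas := Module.Basis.ofSpan hs
  haveI := Module.Finite.finite_basis bas
  haveI := Fintype.ofFinite ↑((linearIndepOn_empty K id).extend (Set.empty_subset
    {v : Fin 3 → K | ∃ μ : K, Matrix.toLin' M.1 v = μ • v}))
  have hcard := (Module.finrank_eq_card_basis bas).symm.trans (Module.finrank_fin_fun K)
  let e := Fintype.equivFinOfCardEq hcard
  let b3 := bas.reindex e
  have hμ : ∀ j, ∃ μ : K, M.1 *ᵥ b3 j = μ • b3 j := fun j => by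
    have := Module.Basis.ofSpan_subset hs ⟨e.symm j, rfl⟩
    simp only [b3, Module.Basis.reindex_apply, bas]
    exact this
  choose μ hμ using hμ
  let Q : Matrix (Fin 3) (Fin 3) K := Matrix.of fun i j => b3 j i
  have hQ : IsUnit Q := Matrix.linearIndependent_cols_iff_isUnit.1 b3.linearIndependent
  have hd : Q.det ≠ 0 := ((Matrix.isUnit_iff_isUnit_det _).1 hQ).ne_zero
  let P : Matrix.SpecialLinearGroup (Fin 3) K :=
    ⟨Q * diagonal ![Q.det⁻¹, 1, 1], by
      rw [det_mul, det_diagonal]; simp [Fin.prod_univ_three, hd]⟩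
  have hMQ : M.1 * Q = Q * diagonal μ := by
    ext i j
    rw [mul_diagonal]
    have := congrFun (hμ j) i
    simp only [Matrix.mulVec, dotProduct, Pi.smul_apply, smul_eq_mul] at this
    simp only [Matrix.mul_apply, Q, Matrix.of_apply]
    rw [this, mul_comm]
  have h3 : μ = ![μ 0, μ 1, μ 2] := by funext i; fin_cases i <;> rfl
  have hp : μ 0 * μ 1 * μ 2 = 1 := by
    have h1 := congrArg Matrix.det hMQ
    rw [det_mul, det_mul, M.2, one_mul, det_diagonal, Fin.prod_univ_three] at h1
    exact mul_left_cancel₀ hd (by rw [mul_one]; exact h1.symm)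
  refine ⟨P, μ 0, μ 1, μ 2, hp, ?_⟩
  have key : M * P = P * triDiag hp := by
    refine Subtype.ext ?_
    show M.1 * (Q * diagonal ![Q.det⁻¹, 1, 1]) = Q * diagonal ![Q.det⁻¹, 1, 1] * diagonal _
    rw [← h3, ← Matrix.mul_assoc, hMQ, Matrix.mul_assoc, Matrix.mul_assoc, diagonal_mul_diagonal,
      diagonal_mul_diagonal]
    simp_rw [mul_comm (μ _)]
  rw [mul_assoc, key, inv_mul_cancel_left]

variable {F : Type*} [Field F]

theorem odd_card_of_two_ne_zero [Fintype F] (h2 : (2 : F) ≠ 0) : Odd (Fintype.card F) := by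
  obtain ⟨n, hp, hn⟩ := FiniteField.card F (ringChar F)
  rw [hn]
  refine Odd.pow (hp.odd_of_ne_two fun h => h2 ?_)
  haveI : CharP F 2 := h ▸ ringChar.charP F
  exact CharTwo.two_eq_zero

/-- A `p′`-element lies, over an algebraically closed field, in the diagonal torus. -/
theorem exists_torus_conj [Fintype F] [IsAlgClosed K] (φ : F →+* K) (s : ↥(G2 F)) {m : ℕ}
    (hm : (m : F) ≠ 0) (hs : s ^ m = 1) :
    ∃ (k : ↥(G2 K)) (a b c : K), a * b * c = 1 ∧
      g2Mat (k * mapG2 φ s * k⁻¹) = diagonal (wOct a b c) := by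
  have hmK : (m : K) ≠ 0 := by
    rw [← map_natCast φ]
    exact fun h => hm (φ.injective (by rw [h, map_zero]))
  by_cases h1 : s = 1
  · refine ⟨1, 1, 1, 1, by ring, ?_⟩
    rw [h1, map_one]
    simp only [one_mul, inv_one, g2Mat_one]
    rw [← diagonal_one]
    congr 1
    funext i; fin_cases i <;> simp [wOct]
  by_cases h2 : s ^ 2 = 1
  · have ho : orderOf s = 2 := orderOf_eq_prime h2 h1
    have h20 : (2 : F) ≠ 0 := fun h0 => by
      obtain ⟨j, hj⟩ := ho ▸ orderOf_dvd_of_pow_eq_one hs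
      exact hm (by rw [hj, Nat.cast_mul, Nat.cast_ofNat, h0, zero_mul])
    obtain ⟨c, hc⟩ := isConj_iff.1 (isConj_stdInv (odd_card_of_two_ne_zero h20) ho)
    have hone : (-1 : K) * -1 * 1 = 1 := by ring
    refine ⟨mapG2 φ c, -1, -1, 1, hone, ?_⟩
    rw [← g2Mat_triDiag hone, ← map_inv, ← map_mul, ← map_mul, hc, mapG2_sl3G2]
    congr 2
    refine Subtype.ext ?_
    show ((stdInv F).1).map φ = _
    ext i j
    fin_cases i <;> fin_cases j <;> simp [stdInv, triDiag]
  set t := mapG2 φ s with ht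
  set f := Matrix.toLin' (g2Mat t) with hfdef
  have htm : g2Mat t ^ m = 1 := by
    have hp : ∀ k : ℕ, g2Mat t ^ k = g2Mat (t ^ k) := fun k => by
      induction k with
      | zero => rw [pow_zero, pow_zero, g2Mat_one]
      | succ k ih => rw [pow_succ, pow_succ, g2Mat_mul, ih]
    rw [hp, ht, ← map_pow, hs, map_one, g2Mat_one]
  have hs' := span_eigen_eq_top f hmK (by rw [hfdef, ← Matrix.toLin'_pow, htm, Matrix.toLin'_one]; rfl)
  have happ : ∀ x, f x = g2Mat t *ᵥ x := fun x => Matrix.toLin'_apply _ x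
  obtain ⟨v, μ, hv, hv0, hμ⟩ : ∃ (v : Fin 8 → K) (μ : K), f v = μ • v ∧ v ≠ 0 ∧ μ * μ ≠ 1 := by
    by_contra hno
    push Not at hno
    refine h2 (mapG2_injective φ (g2Mat_injective (Matrix.ext_iff_mulVec.2 fun x => ?_)))
    rw [map_one, g2Mat_one, Matrix.one_mulVec, map_pow, pow_two, g2Mat_mul, ← ht,
      ← Matrix.mulVec_mulVec]
    induction hs' (Submodule.mem_top (x := x)) using Submodule.span_induction with
    | mem y hy =>
      obtain ⟨ν, hν⟩ := hy
      rw [happ] at hν
      rw [hν, Matrix.mulVec_smul, hν, smul_smul]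
      by_cases hy0 : y = 0
      · rw [hy0, smul_zero]
      · rw [hno y ν (by rw [happ, hν]) hy0, one_smul]
    | zero => rw [Matrix.mulVec_zero, Matrix.mulVec_zero]
    | add y z _ _ hy hz => rw [Matrix.mulVec_add, Matrix.mulVec_add, hy, hz]
    | smul r y _ hy => rw [Matrix.mulVec_smul, Matrix.mulVec_smul, hy]
  obtain ⟨w, ⟨ν, hw⟩, hB⟩ : ∃ w, (∃ ν : K, f w = ν • w) ∧ octB v w ≠ 0 := by
    by_contra hno
    push Not at hno
    refine hv0 (eq_zero_of_octB fun y => ?_)
    induction hs' (Submodule.mem_top (x := y)) using Submodule.span_induction with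
    | mem y hy => obtain ⟨ν, hν⟩ := hy; exact hno y ⟨ν, hν⟩
    | zero => exact octB_zero_right v
    | add y z _ _ hy hz => rw [octB_add_right, hy, hz, add_zero]
    | smul r y _ hy => rw [octB_smul_right, hy, mul_zero]
  rw [happ] at hv hw
  have hμν : μ * ν = 1 := by
    have h := octB_g2Mat t v w
    rw [hv, hw, octB_smul_left, octB_smul_right, ← mul_assoc] at h
    exact mul_right_cancel₀ hB (by rw [one_mul]; exact h)
  have hμ1 : μ ≠ 1 := fun h => hμ (by rw [h, one_mul])
  have hν1 : ν ≠ 1 := fun h => hμ1 (by rwa [h, mul_one] at hμν)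
  have hTv : octT v = 0 := by
    have h := octT_g2Mat t v
    rw [hv] at h
    have h' : (μ - 1) * octT v = 0 := by
      simp only [octT, Pi.smul_apply, smul_eq_mul] at h ⊢; linear_combination h
    exact (mul_eq_zero.1 h').resolve_left (sub_ne_zero.2 hμ1)
  have hTw : octT w = 0 := by
    have h := octT_g2Mat t w
    rw [hw] at h
    have h' : (ν - 1) * octT w = 0 := by
      simp only [octT, Pi.smul_apply, smul_eq_mul] at h ⊢; linear_combination h
    exact (mul_eq_zero.1 h').resolve_left (sub_ne_zero.2 hν1)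
  have hQv : octQ v = 0 := by
    have h := octQ_g2Mat t v
    rw [hv] at h
    have h' : (μ * μ - 1) * octQ v = 0 := by
      simp only [octQ, Pi.smul_apply, smul_eq_mul] at h ⊢; linear_combination h
    exact (mul_eq_zero.1 h').resolve_left (sub_ne_zero.2 hμ)
  set e := (-(octB v w)⁻¹) • zornMul v w with he
  have hTe : octT e = 1 := by
    have : octT e = -(octB v w)⁻¹ * octT (zornMul v w) := by simp [he, octT]; ring
    rw [this, octT_zornMul, hTv, zero_mul, zero_sub, neg_mul_neg, inv_mul_cancel₀ hB]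
  have hQe : octQ e = 0 := by
    have : octQ e = (-(octB v w)⁻¹) ^ 2 * octQ (zornMul v w) := by simp [he, octQ]; ring
    rw [this, octQ_zornMul, hQv, zero_mul, mul_zero]
  have hee : zornMul e e = e := by rw [zornMul_self, hTe, hQe, one_smul, zero_smul, sub_zero]
  have hte : g2Mat t *ᵥ e = e := by
    rw [he, Matrix.mulVec_smul, g2Mat_zornMul, hv, hw, zornMul_smul_left, zornMul_smul_right,
      smul_smul μ, hμν, one_smul]
  have he0 : e ≠ 0 := fun h => by simp [h, octT] at hTe
  have he1 : e ≠ octOne K := fun h => by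
    simp [h, octT, octOne, zMk] at hTe
  obtain ⟨k, -, hk⟩ := reach_idemE hee he0 he1
  obtain ⟨M, hM⟩ := exists_sl3_of_fix (g := k * t * k⁻¹) (by
    rw [g2Mat_mul, g2Mat_mul, ← Matrix.mulVec_mulVec, ← Matrix.mulVec_mulVec, ← hk,
      Matrix.mulVec_mulVec (M := g2Mat k⁻¹), g2Mat_inv_mul, Matrix.one_mulVec, hte])
  have hMm : M ^ m = 1 := sl3G2_injective (by
    rw [map_pow, hM, conj_pow, ht, ← map_pow, hs, map_one, map_one, mul_one, mul_inv_cancel])
  obtain ⟨P, a, b, c, habc, hP⟩ := exists_sl3_diag M hmK hMm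
  refine ⟨(sl3G2 P)⁻¹ * k, a, b, c, habc, ?_⟩
  rw [← g2Mat_triDiag habc, ← hP, map_mul, map_mul, map_inv, hM]
  congr 1
  group

end CfsgLib.G2Oct
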