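import Cfsg.Agent.G2Oct.UnipotentBound
import Mathlib.Algebra.CharP.Frobenius
import Mathlib.FieldTheory.IsAlgClosed.AlgebraicClosure
import Mathlib.LinearAlgebra.Matrix.Charpoly.Basic

/-!
The element orders of `G₂(q)` divide a short list of numbers.
-/

set_option autoImplicit false

namespace CfsgLib.G2Oct

open Matrix Cfsg.Lie Polynomial

variable {F : Type*} [Field F] [Fintype F]

/-- The data attached to the semisimple and the unipotent part of an element. -/
def OrderData (F : Type*) [Field F] [Fintype F] (L : Type*) [Field L] [DecidableEq L]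
    (φ : L →+* L) (p k m : ℕ) : Prop :=
  ∃ (a b c : L) (U : ↥(G2 L)), a * b * c = 1 ∧ SixStable φ a b c ∧
    Commute (g2Mat U) (diagonal (wOct a b c)) ∧ orderOf U = p ^ k ∧
    (∀ n, a ^ n = 1 → b ^ n = 1 → c ^ n = 1 → m ∣ n) ∧ ∀ x : L, φ x = x ^ Fintype.card F

theorem g2Mat_pow {K : Type*} [Field K] (g : ↥(G2 K)) (n : ℕ) : g2Mat (g ^ n) = g2Mat g ^ n := by
  induction n with
  | zero => rw [pow_zero, pow_zero, g2Mat_one]
  | succ n ih => rw [pow_succ, pow_succ, g2Mat_mul, ih]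

theorem charpoly_conj {R : Type*} [CommRing R] {A B N : Matrix (Fin 8) (Fin 8) R} (h : A * B = 1)
    (h' : B * A = 1) : (A * N * B).charpoly = N.charpoly := by
  rw [Matrix.charpoly_mul_comm, ← Matrix.mul_assoc, h', Matrix.one_mul]

theorem exists_orderData {L : Type*} [Field L] [IsAlgClosed L] [DecidableEq L] (ι : F →+* L) (p : ℕ)
    [Fact p.Prime] [CharP F p] [CharP L p] (g : ↥(G2 F)) (hg : IsOfFinOrder g) :
    ∃ (k m : ℕ) (φ : L →+* L), orderOf g = p ^ k * m ∧ ¬p ∣ m ∧ OrderData F L φ p k m := by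
  obtain ⟨k, m, hpm, hn⟩ := Nat.exists_eq_pow_mul_and_not_dvd hg.orderOf_pos.ne' p (Fact.out : p.Prime).ne_one
  have hp0 : p ^ k ≠ 0 := pow_ne_zero _ (Fact.out : p.Prime).ne_zero
  have hm0 : m ≠ 0 := fun h => hpm (h ▸ dvd_zero p)
  set s := g ^ (p ^ k) with hs
  set u := g ^ m with hu
  have hso : orderOf s = m := by
    rw [hs, orderOf_pow_of_dvd hp0 (hn ▸ dvd_mul_right _ _), hn, Nat.mul_div_cancel_left _ (Nat.pos_of_ne_zero hp0)]
  have huo : orderOf u = p ^ k := by
    rw [hu, orderOf_pow_of_dvd hm0 (hn ▸ dvd_mul_left _ _), hn, Nat.mul_div_cancel _ (Nat.pos_of_ne_zero hm0)]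
  obtain ⟨K, a, b, c, habc, hD⟩ := exists_torus_conj ι s (m := m)
    (fun h => hpm ((CharP.cast_eq_zero_iff F p m).1 h)) (hso ▸ pow_orderOf_eq_one s)
  obtain ⟨e, -, he⟩ := FiniteField.card F p
  let φ : L →+* L := iterateFrobenius L p e
  have hφ : ∀ x : L, φ x = x ^ Fintype.card F := fun x => by
    rw [he]; exact iterateFrobenius_def p e x
  refine ⟨k, m, φ, hn, hpm, a, b, c, K * mapG2 ι u * K⁻¹, habc, ?_, ?_, ?_, ?_, hφ⟩
  · -- stability
    intro l hl
    let P : F[X] := (g2Mat s).charpoly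
    have hP : P.map ι = (Finset.univ.val.map fun i => X - C (wOct a b c i)).prod := by
      show (g2Mat s).charpoly.map ι = ∏ i, (X - C (wOct a b c i))
      have hmap := Matrix.charpoly_map (g2Mat s) ι
      rw [← g2Mat_mapG2] at hmap
      rw [← charpoly_diagonal, ← hD, g2Mat_mul, g2Mat_mul, ← hmap]
      exact (charpoly_conj (g2Mat_mul_inv K) (g2Mat_inv_mul K)).symm
    have hfix : φ.comp ι = ι := RingHom.ext fun x => by
      show φ (ι x) = ι x
      rw [hφ, ← map_pow, FiniteField.pow_card]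
    have hM : Finset.univ.val.map (fun i => φ (wOct a b c i)) =
        Finset.univ.val.map (fun i => wOct a b c i) := by
      have h1 := congrArg (Polynomial.map φ) hP
      rw [Polynomial.map_map, hfix, hP, Polynomial.map_multiset_prod, Multiset.map_map] at h1
      have h2 := congrArg Polynomial.roots h1
      rw [show (Polynomial.map φ ∘ fun i => X - C (wOct a b c i)) =
          (fun x => X - C x) ∘ fun i => φ (wOct a b c i) from funext fun i => by simp,
        ← Multiset.map_map, roots_multiset_prod_X_sub_C,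
        show (fun i => X - C (wOct a b c i)) = (fun x => X - C x) ∘ fun i => wOct a b c i from rfl,
        ← Multiset.map_map, roots_multiset_prod_X_sub_C] at h2
      exact h2.symm
    have hcount : ∀ x : L, x ≠ 1 →
        (Finset.univ.val.map fun i => wOct a b c i).count x = sixCount a b c x := fun x hx => by
      rw [← card_eigen a b c hx, Multiset.count_map]
      simp only [eq_comm (a := x)]
      rfl
    rw [← hcount l hl, ← hcount (φ l) (fun h => hl (φ.injective (by rw [h, map_one])))]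
    conv_lhs => rw [← hM]
    rw [show (fun i => φ (wOct a b c i)) = φ ∘ fun i => wOct a b c i from rfl, ← Multiset.map_map,
      Multiset.count_map_eq_count' _ _ φ.injective]
  · rw [← hD]
    show g2Mat _ * g2Mat _ = g2Mat _ * g2Mat _
    rw [← g2Mat_mul, ← g2Mat_mul]
    refine congrArg g2Mat ?_
    have hsu : Commute (mapG2 ι u) (mapG2 ι s) := ((Commute.refl g).pow_pow m (p ^ k)).map (mapG2 ι)
    have h1 : Commute (MulAut.conj K (mapG2 ι u)) (MulAut.conj K (mapG2 ι s)) := hsu.map (MulAut.conj K)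
    exact h1.eq
  · rw [← huo, ← orderOf_injective (mapG2 ι) (mapG2_injective ι) u]
    exact MulEquiv.orderOf_eq (MulAut.conj K) (mapG2 ι u)
  · intro n ha hb hc
    rw [← hso]
    refine orderOf_dvd_of_pow_eq_one (mapG2_injective ι ?_)
    have h1 : g2Mat ((K * mapG2 ι s * K⁻¹) ^ n) = g2Mat (1 : ↥(G2 L)) := by
      rw [g2Mat_pow, hD, diagonal_pow, g2Mat_one, ← diagonal_one]
      congr 1
      funext i
      fin_cases i <;> simp [wOct, inv_pow, ha, hb, hc]
    have h2 := g2Mat_injective h1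
    rw [conj_pow] at h2
    rw [map_one, map_pow]
    exact conj_eq_one_iff.1 h2

variable {L : Type*} [Field L] [DecidableEq L] {φ : L →+* L} {p k m : ℕ}

omit [DecidableEq L] in
theorem pow_eq_one_of_sub {x : L} (hx : x ≠ 0) {n : ℕ} (hn : 1 ≤ n) (h : x ^ n = x) :
    x ^ (n - 1) = 1 := by
  obtain ⟨n, rfl⟩ := Nat.exists_eq_add_of_le hn
  rw [pow_add, pow_one] at h
  rw [Nat.add_sub_cancel_left]
  exact mul_left_cancel₀ hx (by rw [mul_one]; exact h)

theorem dvd_of_fixOrInv {a b c : L} (h : a * b * c = 1) (hf : FixOrInv φ a b c)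
    (hm : ∀ n, a ^ n = 1 → b ^ n = 1 → c ^ n = 1 → m ∣ n) (hφ : ∀ x : L, φ x = x ^ Fintype.card F) :
    m ∣ Fintype.card F - 1 ∨ m ∣ Fintype.card F + 1 := by
  obtain ⟨a0, b0, c0⟩ := triple_ne_zero h
  rcases hf with ⟨x, y, z⟩ | ⟨x, y, z⟩ <;> rw [hφ] at x y z
  · exact Or.inl (hm _ (pow_eq_one_of_sub a0 Fintype.card_pos x) (pow_eq_one_of_sub b0 Fintype.card_pos y)
      (pow_eq_one_of_sub c0 Fintype.card_pos z))
  · refine Or.inr (hm _ ?_ ?_ ?_)
    · rw [pow_succ, x, inv_mul_cancel₀ a0]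
    · rw [pow_succ, y, inv_mul_cancel₀ b0]
    · rw [pow_succ, z, inv_mul_cancel₀ c0]

theorem dvd_of_torusKind {a b c : L} (h : a * b * c = 1) (hf : TorusKind φ a b c)
    (hm : ∀ n, a ^ n = 1 → b ^ n = 1 → c ^ n = 1 → m ∣ n) (hφ : ∀ x : L, φ x = x ^ Fintype.card F) :
    m ∣ Fintype.card F ^ 2 - 1 ∨ m ∣ Fintype.card F ^ 2 + Fintype.card F + 1 ∨
      m ∣ Fintype.card F ^ 2 - Fintype.card F + 1 := by
  obtain ⟨a0, b0, c0⟩ := triple_ne_zero h
  set q := Fintype.card F
  have h2 : ∀ x : L, φ (φ x) = x ^ q ^ 2 := fun x => by rw [hφ, hφ, ← pow_mul, sq]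
  rcases hf with ⟨x, y, z⟩ | ⟨x, y, z⟩ | ⟨x, y, z⟩ <;> rw [h2] at x y z
  · have h1 : 1 ≤ q ^ 2 := Nat.one_le_pow _ _ Fintype.card_pos
    exact Or.inl (hm _ (pow_eq_one_of_sub a0 h1 x) (pow_eq_one_of_sub b0 h1 y)
      (pow_eq_one_of_sub c0 h1 z))
  · rw [hφ] at x y z
    refine Or.inr (Or.inl (hm _ ?_ ?_ ?_))
    · rwa [pow_succ, pow_add]
    · rwa [pow_succ, pow_add]
    · rwa [pow_succ, pow_add]
  · rw [hφ] at x y z
    have hle : q ≤ q ^ 2 := Nat.le_self_pow two_ne_zero q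
    have key : ∀ w : L, w ≠ 0 → w ^ q ^ 2 * w = w ^ q → w ^ (q ^ 2 - q + 1) = 1 := fun w w0 hw => by
      refine mul_right_cancel₀ (pow_ne_zero q w0) ?_
      rw [one_mul, ← pow_add, show q ^ 2 - q + 1 + q = q ^ 2 + 1 by omega, pow_succ, hw]
    exact Or.inr (Or.inr (hm _ (key a a0 x) (key b b0 y) (key c c0 z)))

theorem pow_dvd_of_fix [Fact p.Prime] {a b c : L} (h : a * b * c = 1) {U : ↥(G2 L)}
    (hU : orderOf U = p ^ k) (hne : ¬(a = 1 ∧ b = 1 ∧ c = 1)) (j : ℕ)
    (hfix : ∀ i, wOct a b c i ≠ 1 → g2Mat U ^ p ^ j *ᵥ Pi.single i 1 = Pi.single i 1) :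
    p ^ k ∣ p ^ j := by
  rw [← hU]
  exact orderOf_dvd_of_pow_eq_one (eq_one_of_fix_eigen h hne _ fun i hi => by
    rw [g2Mat_pow]; exact hfix i hi)

theorem commute_sub_one {U : Matrix (Fin 8) (Fin 8) L} {w : Fin 8 → L} (h : Commute U (diagonal w)) :
    Commute (U - 1) (diagonal w) := h.sub_left (Commute.one_left _)

theorem isNilpotent_of_orderOf [Fact p.Prime] [CharP L p] {U : ↥(G2 L)} (hU : orderOf U = p ^ k) :
    IsNilpotent (g2Mat U - 1) :=
  isNilpotent_sub_one (p := p) (k := k) (by rw [← g2Mat_pow, ← hU, pow_orderOf_eq_one, g2Mat_one])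

/-- A unipotent element alone. -/
theorem pow_dvd_unipotent [Fact p.Prime] [CharP L p] {U : ↥(G2 L)} (hU : orderOf U = p ^ k) (j : ℕ)
    (hj : 8 ≤ p ^ j ∨ (7 ≤ p ^ j ∧ p ≠ 2)) : p ^ k ∣ p ^ j := by
  rw [← hU]
  refine orderOf_dvd_of_pow_eq_one (g2Mat_injective (Matrix.ext_iff_mulVec.2 fun x => ?_))
  rw [g2Mat_pow, g2Mat_one, Matrix.one_mulVec]
  set w : Fin 8 → L := fun _ => 1
  have hc : Commute (g2Mat U - 1) (diagonal w) := by
    rw [show diagonal w = 1 from diagonal_one]; exact Commute.one_right _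
  have hx : x ∈ eigSupp w 1 := fun i hi => absurd rfl hi
  have hcard : (Finset.univ.filter fun i => w i = 1).card ≤ 8 := by simp [w]
  rcases hj with hj | ⟨hj, hp⟩
  · exact pow_prime_pow_mulVec _ j hj (pow_mulVec_eq_zero hc (isNilpotent_of_orderOf hU) hx hcard)
  · have h2 : (2 : L) ≠ 0 := fun h => hp ((Nat.prime_dvd_prime_iff_eq Fact.out Nat.prime_two).1
      ((CharP.cast_eq_zero_iff L p 2).1 (by exact_mod_cast h)))
    exact pow_prime_pow_mulVec _ j hj (pow_pred_mulVec_eq_zero (k := 8) h2 (fun _ => by simp [w]) U hc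
      (isNilpotent_of_orderOf hU) inv_one (by decide) (by norm_num) hcard hx)

/-- The element orders, odd characteristic. -/
theorem orderData_cases_odd [Fact p.Prime] [CharP L p] (hp : p ≠ 2) (hd : OrderData F L φ p k m) :
    (m = 1 ∧ (k ≤ 1 ∨ ((p = 3 ∨ p = 5) ∧ k ≤ 2))) ∨
    ((m ∣ Fintype.card F - 1 ∨ m ∣ Fintype.card F + 1) ∧ k ≤ 1) ∨
    (k = 0 ∧ (m ∣ Fintype.card F ^ 2 - 1 ∨ m ∣ Fintype.card F ^ 2 + Fintype.card F + 1 ∨
      m ∣ Fintype.card F ^ 2 - Fintype.card F + 1)) := by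
  obtain ⟨a, b, c, U, h, hs, hcU, hU, hm, hφ⟩ := hd
  have hp' : p.Prime := Fact.out
  have hp3 : 3 ≤ p := by have := hp'.two_le; omega
  have hle : ∀ j, p ^ k ∣ p ^ j → k ≤ j := fun j => (Nat.pow_dvd_pow_iff_le_right (by omega)).1
  by_cases hne : a = 1 ∧ b = 1 ∧ c = 1
  · have hm1 : m = 1 := Nat.dvd_one.1 (hm 1 (by simp [hne]) (by simp [hne]) (by simp [hne]))
    refine Or.inl ⟨hm1, ?_⟩
    by_cases h7 : 7 ≤ p
    · exact Or.inl (hle 1 (pow_dvd_unipotent hU 1 (Or.inr ⟨by rwa [pow_one], hp⟩)))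
    · refine Or.inr ⟨?_, hle 2 (pow_dvd_unipotent hU 2 (Or.inl ?_))⟩
      · interval_cases p <;> first | omega | (exact absurd hp' (by norm_num))
      · have : 3 ^ 2 ≤ p ^ 2 := Nat.pow_le_pow_left hp3 2
        omega
  have h2 : (2 : L) ≠ 0 := fun h => hp ((Nat.prime_dvd_prime_iff_eq hp' Nat.prime_two).1
    ((CharP.cast_eq_zero_iff L p 2).1 (by exact_mod_cast h)))
  have hc := commute_sub_one hcU
  have hn := isNilpotent_of_orderOf hU
  rcases triple_cases h hs with hf | ⟨hk, hsp⟩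
  · refine Or.inr (Or.inl ⟨dvd_of_fixOrInv h hf hm hφ, hle 1 (pow_dvd_of_fix h hU hne 1 fun i hi => ?_)⟩)
    have hx := single_mem_eigSupp (wOct a b c) i
    by_cases hsq : wOct a b c i * wOct a b c i = 1
    · have hl : wOct a b c i = -1 := by
        rcases mul_eq_zero.1 (show (wOct a b c i - 1) * (wOct a b c i + 1) = 0 by linear_combination hsq) with e | e
        · exact absurd (sub_eq_zero.1 e) hi
        · exact eq_neg_of_add_eq_zero_left e
      have hcard := (card_eigen a b c hi).trans_le (hl ▸ sixCount_neg_one_le h h2)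
      exact pow_prime_pow_mulVec _ 1 (k := 4 - 1) (by rw [pow_one]; omega)
        (pow_pred_mulVec_eq_zero h2 (wOct_mate a b c) U hc hn (by rw [hl, inv_neg, inv_one]) (by decide)
          (by norm_num) hcard hx)
    · have h0 : wOct a b c i ≠ 0 := by
        obtain ⟨a0, b0, c0⟩ := triple_ne_zero h
        fin_cases i <;> simp [wOct, a0, b0, c0]
      exact pow_prime_pow_mulVec _ 1 (k := 3) (by rw [pow_one]; omega)
        (pow_mulVec_eq_zero hc hn hx ((card_eigen a b c hi).trans_le (sixCount_le_three hsq h0).1))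
  · refine Or.inr (Or.inr ⟨Nat.le_zero.1 (hle 0 (pow_dvd_of_fix h hU hne 0 fun i hi => ?_)),
      dvd_of_torusKind h hk hm hφ⟩)
    have hx := single_mem_eigSupp (wOct a b c) i
    rcases hsp _ hi with hcnt | ⟨hl, hcnt⟩
    · exact pow_prime_pow_mulVec _ 0 (k := 1) (by rw [pow_zero])
        (pow_mulVec_eq_zero hc hn hx ((card_eigen a b c hi).trans_le hcnt))
    · exact pow_prime_pow_mulVec _ 0 (k := 2 - 1) (by norm_num)
        (pow_pred_mulVec_eq_zero h2 (wOct_mate a b c) U hc hn (by rw [hl, inv_neg, inv_one]) (by decide)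
          (by norm_num) ((card_eigen a b c hi).trans_le hcnt) hx)

/-- The element orders, characteristic two. -/
theorem orderData_cases_two [CharP L 2] (hd : OrderData F L φ 2 k m) :
    (m = 1 ∧ k ≤ 3) ∨ (m ∣ 3 ∧ k ≤ 2) ∨
    ((m ∣ Fintype.card F - 1 ∨ m ∣ Fintype.card F + 1) ∧ k ≤ 1) ∨
    (k = 0 ∧ (m ∣ Fintype.card F ^ 2 - 1 ∨ m ∣ Fintype.card F ^ 2 + Fintype.card F + 1 ∨
      m ∣ Fintype.card F ^ 2 - Fintype.card F + 1)) := by
  haveI : Fact (Nat.Prime 2) := ⟨Nat.prime_two⟩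
  obtain ⟨a, b, c, U, h, hs, hcU, hU, hm, hφ⟩ := hd
  have hle : ∀ j, 2 ^ k ∣ 2 ^ j → k ≤ j := fun j => (Nat.pow_dvd_pow_iff_le_right (by omega)).1
  by_cases hne : a = 1 ∧ b = 1 ∧ c = 1
  · exact Or.inl ⟨Nat.dvd_one.1 (hm 1 (by simp [hne]) (by simp [hne]) (by simp [hne])),
      hle 3 (pow_dvd_unipotent hU 3 (Or.inl (by norm_num)))⟩
  have hc := commute_sub_one hcU
  have hn := isNilpotent_of_orderOf hU
  have hneg : (-1 : L) = 1 := CharTwo.neg_eq 1
  have hsq : ∀ i, wOct a b c i ≠ 1 → wOct a b c i * wOct a b c i ≠ 1 ∧ wOct a b c i ≠ 0 := fun i hi => by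
    refine ⟨fun e => ?_, ?_⟩
    · rcases mul_eq_zero.1 (show (wOct a b c i - 1) * (wOct a b c i + 1) = 0 by linear_combination e) with d | d
      · exact hi (sub_eq_zero.1 d)
      · exact hi ((eq_neg_of_add_eq_zero_left d).trans hneg)
    · obtain ⟨a0, b0, c0⟩ := triple_ne_zero h
      fin_cases i <;> simp [wOct, a0, b0, c0]
  rcases triple_cases h hs with hf | ⟨hk, hsp⟩
  · by_cases hbig : ∃ i, wOct a b c i ≠ 1 ∧ 3 ≤ sixCount a b c (wOct a b c i)
    · obtain ⟨i, hi, h3⟩ := hbig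
      obtain ⟨hl, hl0⟩ := hsq i hi
      obtain ⟨ea, eb, ec⟩ := (sixCount_le_three hl hl0).2 h3
      generalize wOct a b c i = l at hi hl hl0 ea eb ec
      have hl3 : l ^ 3 = 1 := by
        rcases ea with rfl | rfl <;> rcases eb with rfl | rfl <;> rcases ec with rfl | rfl <;>
          first
          | (exfalso; apply hi; field_simp at h; linear_combination h; done)
          | (exfalso; apply hi; field_simp at h; linear_combination -h; done)
          | (field_simp at h; linear_combination h)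
          | (field_simp at h; linear_combination -h)
      have key : ∀ x : L, (x = l ∨ x = l⁻¹) → x ^ 3 = 1 := by
        rintro x (rfl | rfl)
        exacts [hl3, by rw [inv_pow, hl3, inv_one]]
      refine Or.inr (Or.inl ⟨hm 3 (key a ea) (key b eb) (key c ec),
        hle 2 (pow_dvd_of_fix h hU hne 2 fun j hj => ?_)⟩)
      obtain ⟨hj', hj0⟩ := hsq j hj
      exact pow_prime_pow_mulVec _ 2 (k := 3) (by norm_num) (pow_mulVec_eq_zero hc hn
        (single_mem_eigSupp _ j) ((card_eigen a b c hj).trans_le (sixCount_le_three hj' hj0).1))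
    · push Not at hbig
      refine Or.inr (Or.inr (Or.inl ⟨dvd_of_fixOrInv h hf hm hφ,
        hle 1 (pow_dvd_of_fix h hU hne 1 fun j hj => ?_)⟩))
      exact pow_prime_pow_mulVec _ 1 (k := 2) (by norm_num) (pow_mulVec_eq_zero hc hn
        (single_mem_eigSupp _ j) ((card_eigen a b c hj).trans_le (by have := hbig j hj; omega)))
  · refine Or.inr (Or.inr (Or.inr ⟨Nat.le_zero.1 (hle 0 (pow_dvd_of_fix h hU hne 0 fun i hi => ?_)),
      dvd_of_torusKind h hk hm hφ⟩))
    rcases hsp _ hi with hcnt | ⟨hl, -⟩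
    · exact pow_prime_pow_mulVec _ 0 (k := 1) (by rw [pow_zero]) (pow_mulVec_eq_zero hc hn
        (single_mem_eigSupp _ i) ((card_eigen a b c hi).trans_le hcnt))
    · exact absurd (hl.trans hneg) hi

end CfsgLib.G2Oct
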