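import Cfsg.Agent.G2Oct.NormForm
import Cfsg.Agent.G2Oct.CentralizerCard
import Cfsg.Agent.G2Oct.Bridge
import Mathlib.GroupTheory.SemidirectProduct
import Mathlib.GroupTheory.Perm.Cycle.Type
import Mathlib.LinearAlgebra.Matrix.GeneralLinearGroup.Card

/-!
# Arbitrarily large groups with the prime graph of `G₂(4)`

`G₂(F)`, `F` of four elements, acts on `oWq = 1^⊥ / ⟨1⟩` inside the octonions, and the elements of
order `7` and `13` fix only zero there.  The extensions of sums of copies of `oWq` by `G₂(F)` have
the same prime graph as `G₂(F)`, which has elements of orders `6` and `10`.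
-/

set_option autoImplicit false

namespace CfsgLib.G2Oct

open Matrix Cfsg.Lie

universe u

section Module

variable (F : Type u) [Field F]

/-- The orthogonal complement of the identity. -/
def oTperp : Submodule F (Fin 8 → F) := LinearMap.ker (polarB F (octOne F))

/-- The multiples of the identity inside `oTperp`. -/
def oLine : Submodule F (oTperp F) := (Submodule.span F {octOne F}).comap (oTperp F).subtype

/-- The quotient of `1^⊥` by the identity. -/
abbrev oWq : Type u := oTperp F ⧸ oLine F

variable {F}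

theorem oTperp_stable (g : ↥(G2 F)) {x : Fin 8 → F} (hx : x ∈ oTperp F) :
    g2Mat g *ᵥ x ∈ oTperp F := by
  rw [oTperp, LinearMap.mem_ker] at hx ⊢
  rw [← g2Mat_octOne g, polarB_g2Mat, hx]

/-- The action on `1^⊥`. -/
def oTact (g : ↥(G2 F)) : oTperp F →ₗ[F] oTperp F :=
  (g2Mat g).mulVecLin.restrict fun _ hx => oTperp_stable g hx

theorem oLine_stable (g : ↥(G2 F)) : oLine F ≤ (oLine F).comap (oTact g) := by
  intro x hx
  obtain ⟨c, hc⟩ := Submodule.mem_span_singleton.1 (Submodule.mem_comap.1 hx)
  refine Submodule.mem_comap.2 (Submodule.mem_comap.2 (Submodule.mem_span_singleton.2 ⟨c, ?_⟩))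
  show c • octOne F = g2Mat g *ᵥ (x : Fin 8 → F)
  rw [show (x : Fin 8 → F) = c • octOne F from hc.symm, Matrix.mulVec_smul, g2Mat_octOne]

/-- The action on `oWq`. -/
def oWact (g : ↥(G2 F)) : oWq F →ₗ[F] oWq F := (oLine F).mapQ (oLine F) (oTact g) (oLine_stable g)

theorem oWact_mk (g : ↥(G2 F)) (x : oTperp F) :
    oWact g (Submodule.Quotient.mk x) = Submodule.Quotient.mk (oTact g x) := rfl

theorem oWact_mul (g h : ↥(G2 F)) (w : oWq F) : oWact (g * h) w = oWact g (oWact h w) := by
  obtain ⟨x, rfl⟩ := Submodule.Quotient.mk_surjective _ w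
  simp only [oWact_mk]
  refine congrArg _ (Subtype.ext ?_)
  show g2Mat (g * h) *ᵥ (x : Fin 8 → F) = g2Mat g *ᵥ (g2Mat h *ᵥ (x : Fin 8 → F))
  rw [g2Mat_mul, Matrix.mulVec_mulVec]

theorem oWact_one (w : oWq F) : oWact (1 : ↥(G2 F)) w = w := by
  obtain ⟨x, rfl⟩ := Submodule.Quotient.mk_surjective _ w
  rw [oWact_mk]
  refine congrArg _ (Subtype.ext ?_)
  show g2Mat (1 : ↥(G2 F)) *ᵥ (x : Fin 8 → F) = x
  rw [g2Mat_one, Matrix.one_mulVec]

/-- The action on sums of copies of `oWq`. -/
def oSumAct (n : ℕ) : ↥(G2 F) →* MulAut (Multiplicative (Fin n → oWq F)) where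
  toFun g :=
    { toFun := fun v => Multiplicative.ofAdd fun i => oWact g (v.toAdd i)
      invFun := fun v => Multiplicative.ofAdd fun i => oWact g⁻¹ (v.toAdd i)
      left_inv := fun v => Multiplicative.toAdd.injective <| funext fun i => by
        simp [← oWact_mul, oWact_one]
      right_inv := fun v => Multiplicative.toAdd.injective <| funext fun i => by
        simp [← oWact_mul, oWact_one]
      map_mul' := fun v w => Multiplicative.toAdd.injective <| funext fun i => by simp }
  map_one' := MulEquiv.ext fun v => Multiplicative.toAdd.injective <| funext fun i => by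
    simp [oWact_one]
  map_mul' g h := MulEquiv.ext fun v => Multiplicative.toAdd.injective <| funext fun i => by
    simp [oWact_mul]

end Module

variable {F : Type u} [Field F] [Fintype F]

theorem charP_two_of_card_four (hF : Fintype.card F = 4) : CharP F 2 := by
  obtain ⟨n, hp, hn⟩ := FiniteField.card F (ringChar F)
  rw [hF] at hn
  have h2 : ringChar F = 2 := (Nat.prime_dvd_prime_iff_eq hp Nat.prime_two).1
    (hp.dvd_of_dvd_pow (n := 2) (by
      rw [show (2 : ℕ) ^ 2 = 4 from rfl, hn]; exact dvd_pow_self _ n.ne_zero))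
  exact h2 ▸ ringChar.charP F

/-- An element of order `7` or `13` fixes only zero on `oWq`. -/
theorem eq_zero_of_fixed (hF : Fintype.card F = 4) {g : ↥(G2 F)} {r : ℕ} (hr : r = 7 ∨ r = 13)
    (hg : orderOf g = r) {w : oWq F} (hw : oWact g w = w) : w = 0 := by
  classical
  have := charP_two_of_card_four hF
  have hodd : (r : F) = 1 := by
    have h2 : (2 : F) = 0 := CharTwo.two_eq_zero
    rcases hr with rfl | rfl
    · push_cast; linear_combination (3 : F) * h2
    · push_cast; linear_combination (6 : F) * h2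
  have : Fact r.Prime := ⟨by rcases hr with rfl | rfl <;> norm_num⟩
  have hgr : g2Mat g ^ r = 1 := by
    have h1 : ∀ k : ℕ, g2Mat g ^ k = g2Mat (g ^ k) := fun k => by
      induction k with
      | zero => simp [g2Mat_one]
      | succ k ih => rw [pow_succ, pow_succ, g2Mat_mul, ih]
    rw [h1, ← hg, pow_orderOf_eq_one, g2Mat_one]
  -- the fixed space
  let U : Submodule F (Fin 8 → F) := LinearMap.eqLocus (g2Mat g).mulVecLin LinearMap.id
  have hU : ∀ x, x ∈ U ↔ g2Mat g *ᵥ x = x := fun x => Iff.rfl
  -- lift the fixed element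
  obtain ⟨x, rfl⟩ := Submodule.Quotient.mk_surjective _ w
  rw [oWact_mk, Submodule.Quotient.eq] at hw
  obtain ⟨c, hc⟩ := Submodule.mem_span_singleton.1 (Submodule.mem_comap.1 hw)
  change c • octOne F = g2Mat g *ᵥ (x : Fin 8 → F) - (x : Fin 8 → F) at hc
  have hiter : ∀ k : ℕ, g2Mat g ^ k *ᵥ (x : Fin 8 → F) = x + (k : F) • c • octOne F := by
    intro k
    induction k with
    | zero => simp
    | succ k ih =>
      rw [pow_succ', ← Matrix.mulVec_mulVec, ih, Matrix.mulVec_add, Matrix.mulVec_smul,
        Matrix.mulVec_smul, g2Mat_octOne, hc, Nat.cast_succ, add_smul, one_smul]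
      abel
  have hc0 : c • octOne F = 0 := by
    have := hiter r
    rw [hgr, Matrix.one_mulVec, hodd, one_smul] at this
    exact add_eq_left.1 this.symm
  have hxU : (x : Fin 8 → F) ∈ U := (hU _).2 (sub_eq_zero.1 (hc.symm.trans hc0))
  -- the form on the fixed space is nondegenerate
  have hnd : ∀ u ∈ U, (∀ v ∈ U, polarB F u v = 0) → u = 0 := by
    intro u hu h
    refine polarB_nondeg fun y => ?_
    have hfix : ∀ i : ℕ, g2Mat g ^ i *ᵥ u = u := fun i => by
      induction i with
      | zero => simp
      | succ i ih => rw [pow_succ', ← Matrix.mulVec_mulVec, ih, (hU u).1 hu]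
    have hinv : ∀ i : ℕ, polarB F u (g2Mat g ^ i *ᵥ y) = polarB F u y := fun i => by
      induction i with
      | zero => simp
      | succ i ih =>
        rw [pow_succ', ← Matrix.mulVec_mulVec]
        conv_lhs => rw [← (hU u).1 hu]
        rw [polarB_g2Mat, ih]
    set s := ∑ i ∈ Finset.range r, g2Mat g ^ i *ᵥ y with hs
    have hsU : s ∈ U := by
      rw [hU, hs, Matrix.mulVec_sum]
      simp only [Matrix.mulVec_mulVec, ← pow_succ']
      have hf := Finset.sum_range_succ' (fun i => g2Mat g ^ i *ᵥ y) r
      rw [Finset.sum_range_succ, hgr, pow_zero] at hf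
      exact (add_right_cancel hf).symm
    have h0 := h s hsU
    rw [hs, map_sum, Finset.sum_congr rfl fun i _ => hinv i, Finset.sum_const, Finset.card_range,
      nsmul_eq_mul, hodd, one_mul] at h0
    exact h0
  have heven : Even (Module.finrank F U) := even_finrank_of_alternating _ rfl
    (((polarB F).comp U.subtype).compl₂ U.subtype) (fun v => polarB_self (v : Fin 8 → F))
    fun v hv => Subtype.ext (hnd v v.2 fun v' hv' => hv ⟨v', hv'⟩)
  -- its dimension modulo r
  have hdim : 4 ^ Module.finrank F U ≡ 4 ^ 8 [MOD r] := by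
    let σ : Equiv.Perm (Fin 8 → F) :=
      { toFun := fun v => g2Mat g *ᵥ v
        invFun := fun v => g2Mat g⁻¹ *ᵥ v
        left_inv := fun v => by
          show g2Mat g⁻¹ *ᵥ (g2Mat g *ᵥ v) = v
          rw [Matrix.mulVec_mulVec, g2Mat_inv_mul, Matrix.one_mulVec]
        right_inv := fun v => by
          show g2Mat g *ᵥ (g2Mat g⁻¹ *ᵥ v) = v
          rw [Matrix.mulVec_mulVec, g2Mat_mul_inv, Matrix.one_mulVec] }
    have hσ : σ ^ r ^ 1 = 1 := by
      refine Equiv.ext fun v => ?_
      have hk : ∀ k : ℕ, (σ ^ k) v = g2Mat g ^ k *ᵥ v := fun k => by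
        induction k with
        | zero => simp
        | succ k ih =>
          rw [pow_succ', Equiv.Perm.mul_apply, ih]
          show g2Mat g *ᵥ _ = _
          rw [pow_succ', Matrix.mulVec_mulVec]
      rw [pow_one, hk, hgr, Matrix.one_mulVec, Equiv.Perm.one_apply]
    have h := Equiv.Perm.card_compl_support_modEq (p := r) (n := 1) hσ
    have hcard : σ.supportᶜ.card = 4 ^ Module.finrank F U := by
      rw [← hF, ← Fintype.card_coe, ← Module.card_eq_pow_finrank (K := F) (V := U)]
      refine Fintype.card_congr (Equiv.subtypeEquivRight fun v => ?_)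
      simp [Equiv.Perm.mem_support, hU, σ]
    rwa [hcard, Fintype.card_fun, hF, Fintype.card_fin] at h
  have hle : Module.finrank F U ≤ 8 := by
    refine (Submodule.finrank_le _).trans (le_of_eq ?_)
    rw [Module.finrank_fintype_fun_eq_card, Fintype.card_fin]
  have h8 : Module.finrank F U ≠ 8 := fun h8 => by
    have htop : U = ⊤ := Submodule.eq_top_of_finrank_eq
      (by rw [h8, Module.finrank_fintype_fun_eq_card, Fintype.card_fin])
    have h1 : g = 1 := g2Mat_injective (Matrix.ext_iff_mulVec.2 fun v => by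
      rw [g2Mat_one, Matrix.one_mulVec]
      exact (hU v).1 (htop ▸ Submodule.mem_top))
    rw [h1, orderOf_one] at hg
    rcases hr with rfl | rfl <;> norm_num at hg
  have h2 : Module.finrank F U ≤ 2 := by
    obtain ⟨m, hm⟩ := heven
    have hm4 : m ≤ 4 := by omega
    rw [hm] at hdim h8 ⊢
    rcases hr with rfl | rfl <;> interval_cases m <;> revert hdim h8 <;> decide
  -- hence `U ∩ 1^⊥` is the line of the identity
  have h1U : octOne F ∈ U := (hU _).2 (g2Mat_octOne g)
  have h1T : octOne F ∈ oTperp F := polarB_self _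
  have hlt : Module.finrank F ↥(U ⊓ oTperp F) < Module.finrank F U := by
    refine Submodule.finrank_lt_finrank_of_lt (lt_of_le_of_ne inf_le_left fun e => ?_)
    refine octOne_ne_zero_norm (hnd _ h1U fun v hv => ?_)
    rw [← e] at hv
    exact hv.2
  have hspan : Submodule.span F {octOne F} = U ⊓ oTperp F := by
    refine Submodule.eq_of_le_of_finrank_le
      ((Submodule.span_singleton_le_iff_mem _ _).2 ⟨h1U, h1T⟩) ?_
    rw [finrank_span_singleton octOne_ne_zero_norm]
    omega
  rw [Submodule.Quotient.mk_eq_zero]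
  show (x : Fin 8 → F) ∈ Submodule.span F {octOne F}
  rw [hspan]
  exact ⟨hxU, x.2⟩

theorem exists_two_mul (hF : Fintype.card F = 4) {r : ℕ} (hr : r = 3 ∨ r = 5) :
    ∃ g : ↥(G2 F), orderOf g = 2 * r := by
  classical
  have := charP_two_of_card_four hF
  have : Fact r.Prime := ⟨by rcases hr with rfl | rfl <;> norm_num⟩
  have hGL : Nat.card (GL (Fin 2) F) = 180 := by
    rw [Matrix.card_GL_field, Fin.prod_univ_two, hF]; norm_num
  have hcard : Nat.card (Matrix.SpecialLinearGroup (Fin 2) F) * 3 = 180 := by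
    rw [← hGL]
    let dt : GL (Fin 2) F →* Fˣ := Matrix.GeneralLinearGroup.det
    have hsurj : Function.Surjective dt := fun a => ⟨diagA a, det_diagA a⟩
    have hker : Nat.card dt.ker = Nat.card (Matrix.SpecialLinearGroup (Fin 2) F) := by
      refine (Nat.card_congr (Equiv.ofBijective
        (fun S => (⟨Matrix.SpecialLinearGroup.toGL S, det_toGL' S⟩ : dt.ker)) ⟨fun S T e => ?_,
          fun M => ?_⟩)).symm
      · exact Matrix.SpecialLinearGroup.toGL_injective (congrArg Subtype.val e)
      · refine ⟨⟨((M : GL (Fin 2) F) : Matrix (Fin 2) (Fin 2) F), ?_⟩, Subtype.ext (Units.ext rfl)⟩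
        exact congrArg Units.val M.2
    rw [← hker, ← dt.ker.index_mul_card, Subgroup.index_ker,
      MonoidHom.range_eq_top.2 hsurj, Subgroup.card_top, Nat.card_units,
      Nat.card_eq_fintype_card (α := F), hF]
    ring
  obtain ⟨A, hA⟩ := exists_prime_orderOf_dvd_card' (G := Matrix.SpecialLinearGroup (Fin 2) F) 2
    (by rw [show Nat.card (Matrix.SpecialLinearGroup (Fin 2) F) = 60 by omega]; norm_num)
  obtain ⟨B, hB⟩ := exists_prime_orderOf_dvd_card' (G := Matrix.SpecialLinearGroup (Fin 2) F) r
    (by rw [show Nat.card (Matrix.SpecialLinearGroup (Fin 2) F) = 60 by omega]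
        rcases hr with rfl | rfl <;> norm_num)
  refine ⟨((toG2 (F := F)).comp leftHom) A * ((toG2 (F := F)).comp rightHom) B, ?_⟩
  have hc : Commute (((toG2 (F := F)).comp leftHom) A) (((toG2 (F := F)).comp rightHom) B) :=
    left_right_comm A B
  rw [hc.orderOf_mul_eq_mul_orderOf_of_coprime, orderOf_injective _ leftRight_injective.1,
    orderOf_injective _ leftRight_injective.2, hA, hB]
  rw [orderOf_injective _ leftRight_injective.1, orderOf_injective _ leftRight_injective.2, hA, hB]
  rcases hr with rfl | rfl <;> norm_num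

/-- The cover. -/
abbrev G2Cover (F : Type u) [Field F] (n : ℕ) : Type u :=
  Multiplicative (Fin n → oWq F) ⋊[oSumAct n] ↥(G2 F)

omit [Fintype F] in
theorem sq_eq_one_of_kernel [CharP F 2] (n : ℕ) (v : Multiplicative (Fin n → oWq F)) : v * v = 1 := by
  refine Multiplicative.toAdd.injective (funext fun i => ?_)
  show v.toAdd i + v.toAdd i = 0
  rw [← two_smul F, CharTwo.two_eq_zero, zero_smul]

theorem graph_iff (hF : Fintype.card F = 4) (n : ℕ)
    (hprimes : ∀ r : ℕ, r.Prime → r ∣ Nat.card ↥(G2 F) → r = 2 ∨ r = 3 ∨ r = 5 ∨ r = 7 ∨ r = 13)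
    (p q : ℕ) (hp : p.Prime) (hq : q.Prime) (hpq : p ≠ q) :
    (∃ g : ↥(G2 F), orderOf g = p * q) ↔ (∃ g : G2Cover F n, orderOf g = p * q) := by
  have := charP_two_of_card_four hF
  refine ⟨fun ⟨g, hg⟩ => ⟨SemidirectProduct.inr g, by
    rw [orderOf_injective _ SemidirectProduct.inr_injective, hg]⟩, ?_⟩
  rintro ⟨x, hx⟩
  have hdvd : orderOf x.right ∣ p * q := hx ▸ orderOf_map_dvd SemidirectProduct.rightHom x
  have hker : x ^ orderOf x.right = SemidirectProduct.inl (x ^ orderOf x.right).left := by
    refine SemidirectProduct.ext rfl ?_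
    rw [SemidirectProduct.right_inl, ← SemidirectProduct.rightHom_eq_right, map_pow]
    exact pow_orderOf_eq_one _
  have h2 : p * q ∣ orderOf x.right * 2 := by
    rw [← hx]
    refine orderOf_dvd_of_pow_eq_one ?_
    rw [pow_mul, hker, pow_two, ← map_mul, sq_eq_one_of_kernel, map_one]
  by_cases heq : orderOf x.right = p * q
  · exact ⟨_, heq⟩
  wlog hp2 : p = 2 generalizing p q
  · have hp' : p ∣ orderOf x.right :=
      ((Nat.coprime_primes hp Nat.prime_two).2 hp2).dvd_of_dvd_mul_right
        ((dvd_mul_right p q).trans h2)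
    by_cases hq2 : q = 2
    · obtain ⟨g, hg⟩ := this q p hq hp hpq.symm (mul_comm q p ▸ hx) (mul_comm q p ▸ hdvd)
        (mul_comm q p ▸ h2) (mul_comm q p ▸ heq) hq2
      exact ⟨g, hg.trans (mul_comm q p)⟩
    · have hq' : q ∣ orderOf x.right :=
        ((Nat.coprime_primes hq Nat.prime_two).2 hq2).dvd_of_dvd_mul_right
          ((dvd_mul_left q p).trans h2)
      exact absurd (Nat.dvd_antisymm hdvd
        (((Nat.coprime_primes hp hq).2 hpq).mul_dvd_of_dvd_of_dvd hp' hq')) heq
  subst hp2
  have hq' : q ∣ orderOf x.right :=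
    ((Nat.coprime_primes hq Nat.prime_two).2 (Ne.symm hpq)).dvd_of_dvd_mul_right
      ((dvd_mul_left q 2).trans h2)
  have hord : orderOf x.right = q := by
    obtain ⟨k, hk⟩ := hq'
    rw [hk, mul_comm 2 q] at hdvd
    rcases (Nat.dvd_prime Nat.prime_two).1 (Nat.dvd_of_mul_dvd_mul_left hq.pos hdvd) with rfl | rfl
    · rw [hk, mul_one]
    · exact absurd (by rw [hk, mul_comm]) heq
  set v := (x ^ orderOf x.right).left with hv
  have hv1 : v ≠ 1 := fun h1 => by
    rw [h1, map_one] at hker
    have := Nat.le_of_dvd hq.pos (hx ▸ hord ▸ orderOf_dvd_of_pow_eq_one hker)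
    have := hq.two_le
    omega
  have hcomm : x * SemidirectProduct.inl v = SemidirectProduct.inl v * x := by
    rw [← hker]; exact (Commute.refl x).pow_right _
  have hfix : oSumAct n x.right v = v := by
    have := congrArg SemidirectProduct.left hcomm
    simp only [SemidirectProduct.mul_left, SemidirectProduct.left_inl, SemidirectProduct.right_inl,
      map_one, MulAut.one_apply] at this
    rw [mul_comm v x.left] at this
    exact mul_left_cancel this
  have h35 : q = 3 ∨ q = 5 := by
    rcases hprimes q hq (hord ▸ orderOf_dvd_natCard _) with h | h | h | h | h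
    · exact absurd h.symm hpq
    · exact Or.inl h
    · exact Or.inr h
    all_goals
      refine absurd ?_ hv1
      refine Multiplicative.toAdd.injective (funext fun i => ?_)
      exact eq_zero_of_fixed hF (r := q) (by omega) hord
        (congrFun (congrArg Multiplicative.toAdd hfix) i)
  exact exists_two_mul hF h35

end CfsgLib.G2Oct
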