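import Cfsg.Agent.G2Oct.Generation
import Mathlib.LinearAlgebra.BilinearMap
import Mathlib.LinearAlgebra.FiniteDimensional.Lemmas

/-!
# The norm form of the split octonions

`oNorm` is preserved by `G₂(F)`, since `x * x = tr x • x - oNorm x • 1`; `polarB` is its polar form,
which is alternating in characteristic two.  A nondegenerate alternating form lives in even dimension.
-/

set_option autoImplicit false

namespace CfsgLib.G2Oct

open Matrix Cfsg.Lie

variable {F : Type*} [Field F]

/-- The norm of the split octonions. -/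
def oNorm (x : Fin 8 → F) : F := x 0 * x 7 - (x 1 * x 4 + x 2 * x 5 + x 3 * x 6)

/-- The trace of the split octonions. -/
def oTr (x : Fin 8 → F) : F := x 0 + x 7

theorem zornMul_self_norm (x : Fin 8 → F) :
    zornMul x x = oTr x • x - oNorm x • octOne F := by
  ext i
  fin_cases i <;>
    simp [zornMul, oTr, oNorm, octOne, zMk, dot3, cross3, zA, zB] <;> ring

theorem octOne_ne_zero_norm : octOne F ≠ 0 := fun h => by
  simpa [octOne, zMk] using congrFun h 0

theorem oNorm_smul_one (c : F) : oNorm (c • octOne F) = c * c := by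
  simp [oNorm, octOne, zMk]

theorem oNorm_g2Mat (g : ↥(G2 F)) (x : Fin 8 → F) : oNorm (g2Mat g *ᵥ x) = oNorm x := by
  by_cases hx : ∃ c : F, x = c • octOne F
  · obtain ⟨c, rfl⟩ := hx
    rw [Matrix.mulVec_smul, g2Mat_octOne]
  have h := g2Mat_zornMul g x x
  rw [zornMul_self_norm, zornMul_self_norm, Matrix.mulVec_sub, Matrix.mulVec_smul, Matrix.mulVec_smul,
    g2Mat_octOne] at h
  set y := g2Mat g *ᵥ x with hy
  by_contra hne
  have e : (oTr x - oTr y) • y = (oNorm x - oNorm y) • octOne F := by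
    rw [sub_smul, sub_smul]
    linear_combination (norm := module) h
  by_cases ht : oTr x - oTr y = 0
  · rw [ht, zero_smul] at e
    exact hne (sub_eq_zero.1 ((smul_eq_zero.1 e.symm).resolve_right octOne_ne_zero_norm)).symm
  refine hx ⟨(oTr x - oTr y)⁻¹ * (oNorm x - oNorm y), g2Mat_inj g ?_⟩
  rw [Matrix.mulVec_smul, g2Mat_octOne, ← smul_smul, ← e, inv_smul_smul₀ ht, hy]

/-- The polar form of the norm. -/
def polarB (F : Type*) [Field F] : (Fin 8 → F) →ₗ[F] (Fin 8 → F) →ₗ[F] F :=
  LinearMap.mk₂ F (fun x y => x 0 * y 7 + x 7 * y 0 -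
      (x 1 * y 4 + x 4 * y 1 + (x 2 * y 5 + x 5 * y 2) + (x 3 * y 6 + x 6 * y 3)))
    (fun x x' y => by simp only [Pi.add_apply]; ring)
    (fun c x y => by simp only [Pi.smul_apply, smul_eq_mul]; ring)
    (fun x y y' => by simp only [Pi.add_apply]; ring)
    (fun c x y => by simp only [Pi.smul_apply, smul_eq_mul]; ring)

theorem polarB_eq (x y : Fin 8 → F) : polarB F x y = oNorm (x + y) - oNorm x - oNorm y := by
  simp only [polarB, LinearMap.mk₂_apply, oNorm, Pi.add_apply]
  ring

theorem polarB_g2Mat (g : ↥(G2 F)) (x y : Fin 8 → F) :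
    polarB F (g2Mat g *ᵥ x) (g2Mat g *ᵥ y) = polarB F x y := by
  rw [polarB_eq, polarB_eq, ← Matrix.mulVec_add, oNorm_g2Mat, oNorm_g2Mat, oNorm_g2Mat]

theorem polarB_self [CharP F 2] (x : Fin 8 → F) : polarB F x x = 0 := by
  have h2 : (2 : F) = 0 := CharTwo.two_eq_zero
  simp only [polarB, LinearMap.mk₂_apply]
  linear_combination (x 0 * x 7 - (x 1 * x 4 + x 2 * x 5 + x 3 * x 6)) * h2

theorem polarB_nondeg {x : Fin 8 → F} (h : ∀ y, polarB F x y = 0) : x = 0 := by
  ext i
  have h0 := h (Pi.single 7 1)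
  have h1 := h (Pi.single 4 1)
  have h2 := h (Pi.single 5 1)
  have h3 := h (Pi.single 6 1)
  have h4 := h (Pi.single 1 1)
  have h5 := h (Pi.single 2 1)
  have h6 := h (Pi.single 3 1)
  have h7 := h (Pi.single 0 1)
  simp [polarB] at h0 h1 h2 h3 h4 h5 h6 h7
  fin_cases i <;> simp_all

theorem even_finrank_of_alternating {V : Type*} [AddCommGroup V] [Module F V]
    [FiniteDimensional F V] : ∀ (n : ℕ), Module.finrank F V = n →
    ∀ B : V →ₗ[F] V →ₗ[F] F, (∀ x, B x x = 0) → (∀ x, (∀ y, B x y = 0) → x = 0) → Even n := by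
  intro n
  induction n using Nat.strong_induction_on generalizing V with
  | _ n ih =>
  intro hn B halt hnd
  rcases Nat.eq_zero_or_pos n with rfl | hpos
  · exact even_iff_two_dvd.2 (dvd_zero 2)
  haveI : Nontrivial V := Module.nontrivial_of_finrank_pos (R := F) (hn ▸ hpos)
  obtain ⟨u, hu⟩ := exists_ne (0 : V)
  obtain ⟨v', hv'⟩ : ∃ v, B u v ≠ 0 := by
    by_contra! hh
    exact hu (hnd u hh)
  obtain ⟨v, huv⟩ : ∃ v, B u v = 1 :=
    ⟨(B u v')⁻¹ • v', by rw [map_smul, smul_eq_mul, inv_mul_cancel₀ hv']⟩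
  have hskew : ∀ x y, B x y = - B y x := fun x y => by
    have := halt (x + y)
    simp only [map_add, LinearMap.add_apply, halt] at this
    linear_combination this
  have hvu : B v u = -1 := by rw [hskew, huv]
  set π : V →ₗ[F] F × F := (B u).prod (B v) with hπ
  have hsurj : LinearMap.range π = ⊤ := by
    refine LinearMap.range_eq_top.2 fun ⟨a, b⟩ => ⟨a • v + (-b) • u, ?_⟩
    simp [hπ, huv, hvu, halt]
  have hdim := LinearMap.finrank_range_add_finrank_ker π
  rw [hsurj, finrank_top, Module.finrank_prod, Module.finrank_self, hn] at hdim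
  set W := LinearMap.ker π with hW
  have hev := ih _ (by omega) (V := W) rfl
    ((B.comp W.subtype).compl₂ W.subtype) (fun x => halt x) fun x hx => by
      refine Subtype.ext (hnd x fun y => ?_)
      have hxu : B u x = 0 ∧ B v x = 0 := by simpa [hW, hπ] using x.2
      have hy : y - B u y • v + B v y • u ∈ W := by
        simp [hW, hπ, huv, hvu, halt]
      have := hx ⟨_, hy⟩
      simp only [LinearMap.compl₂_apply, LinearMap.coe_comp, Function.comp_apply,
        Submodule.coe_subtype, map_add, map_sub, map_smul, smul_eq_mul] at this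
      rw [hskew x v, hskew x u, hxu.1, hxu.2] at this
      linear_combination this
  obtain ⟨m, hm⟩ := hev
  exact ⟨m + 1, by omega⟩

end CfsgLib.G2Oct
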