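import Cfsg.Agent.G2Oct.Descent
import Cfsg.Agent.G2Oct.CentralizerCard
import Cfsg.Agent.G2Oct.SingerCycle
import Cfsg.Agent.Spec53.PSU3Spectrum
import Cfsg.Agent.SpecUnitary.Group
import Mathlib.Data.ZMod.Basic

/-!
Elements of `G₂(q)` of the orders in the list.
-/

set_option autoImplicit false

namespace CfsgLib.G2Oct

open Matrix Cfsg.Lie

variable {F : Type*} [Field F] [Fintype F]

local notation "SL2" => Matrix.SpecialLinearGroup (Fin 2) F

theorem exists_order_singer (hq : 3 ≤ Fintype.card F) :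
    ∃ g : ↥(G2 F), orderOf g = Fintype.card F ^ 2 + Fintype.card F + 1 := by
  obtain ⟨M, hM, -⟩ := exists_norm_one_element hq
  exact ⟨sl3G2 M, by rw [orderOf_injective sl3G2 sl3G2_injective, hM]⟩

theorem orderOf_eq_of_pow_iff {A B : Type*} [Monoid A] [Monoid B] (a : A) (b : B)
    (h : ∀ n : ℕ, a ^ n = 1 ↔ b ^ n = 1) : orderOf a = orderOf b :=
  orderOf_eq_orderOf_iff.2 h

/-- A Singer cycle of `GL₂`. -/
theorem exists_singer_two (p : ℕ) [Fact p.Prime] [CharP F p] :
    ∃ S : GL (Fin 2) F, orderOf S = Fintype.card F ^ 2 - 1 := by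
  let K := FiniteField.Extension F p 2
  have hK : Nat.card K = Fintype.card F ^ 2 := by
    rw [FiniteField.natCard_extension, Nat.card_eq_fintype_card]
  let b : Module.Basis (Fin 2) F K :=
    Module.finBasisOfFinrankEq F K (FiniteField.finrank_extension F p 2)
  obtain ⟨u, hu⟩ := IsCyclic.exists_ofOrder_eq_natCard (α := Kˣ)
  refine ⟨Units.map (Algebra.leftMulMatrix b).toMonoidHom u, ?_⟩
  rw [orderOf_injective (Units.map (Algebra.leftMulMatrix b).toMonoidHom)
    (Units.map_injective (Algebra.leftMulMatrix_injective b)), hu, Nat.card_units, hK]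

/-- The matrix of `GL₂` inside `SL₃`. -/
def glSl3Mat (A : GL (Fin 2) F) : Matrix (Fin 3) (Fin 3) F :=
  !![A.1 0 0, A.1 0 1, 0; A.1 1 0, A.1 1 1, 0; 0, 0, (A.1.det)⁻¹]

/-- `GL₂` inside `SL₃`. -/
def glSl3 : GL (Fin 2) F →* Matrix.SpecialLinearGroup (Fin 3) F where
  toFun A := ⟨glSl3Mat A, by
    have h : A.1.det ≠ 0 := ((Matrix.isUnit_iff_isUnit_det _).1 A.isUnit).ne_zero
    rw [glSl3Mat, det_fin_three]
    simp only [Matrix.of_apply, Matrix.cons_val', Matrix.cons_val_zero, Matrix.cons_val_one,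
      Matrix.cons_val, Matrix.empty_val', Matrix.cons_val_fin_one]
    rw [det_fin_two] at h ⊢
    field_simp
    ring⟩
  map_one' := Subtype.ext (show glSl3Mat 1 = 1 by
    ext i j; fin_cases i <;> fin_cases j <;> simp [glSl3Mat])
  map_mul' A B := Subtype.ext (show glSl3Mat (A * B) = glSl3Mat A * glSl3Mat B by
    ext i j
    fin_cases i <;> fin_cases j <;>
      simp [glSl3Mat, Matrix.mul_apply, Fin.sum_univ_three, Fin.sum_univ_two, Units.val_mul, mul_comm])

theorem glSl3_injective : Function.Injective (glSl3 (F := F)) := fun A B h => by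
  have h1 := congrArg Subtype.val h
  refine Units.ext ?_
  ext i j
  fin_cases i <;> fin_cases j
  exacts [congrFun (congrFun h1 0) 0, congrFun (congrFun h1 0) 1, congrFun (congrFun h1 1) 0,
    congrFun (congrFun h1 1) 1]

theorem exists_order_sq_sub_one (p : ℕ) [Fact p.Prime] [CharP F p] :
    ∃ g : ↥(G2 F), orderOf g = Fintype.card F ^ 2 - 1 := by
  obtain ⟨S, hS⟩ := exists_singer_two (F := F) p
  exact ⟨sl3G2 (glSl3 S), by
    rw [orderOf_injective sl3G2 sl3G2_injective, orderOf_injective glSl3 glSl3_injective, hS]⟩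

/-- A transvection of `SL₂`. -/
def upperSL (t : F) : SL2 := ⟨!![1, t; 0, 1], by simp [det_fin_two]⟩

theorem upperSL_pow (n : ℕ) : upperSL (1 : F) ^ n = upperSL (n : F) := by
  induction n with
  | zero =>
    rw [pow_zero]; refine Subtype.ext ?_
    ext i j; fin_cases i <;> fin_cases j <;> simp [upperSL]
  | succ n ih =>
    rw [pow_succ, ih]; refine Subtype.ext ?_
    rw [Matrix.SpecialLinearGroup.coe_mul]
    ext i j; fin_cases i <;> fin_cases j <;> simp [upperSL, Matrix.mul_apply, Fin.sum_univ_two, add_comm]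

theorem orderOf_upperSL (p : ℕ) [hp : Fact p.Prime] [CharP F p] : orderOf (upperSL (1 : F)) = p := by
  refine orderOf_eq_prime ?_ fun h => ?_
  · rw [upperSL_pow, CharP.cast_eq_zero]
    refine Subtype.ext ?_
    ext i j; fin_cases i <;> fin_cases j <;> simp [upperSL]
  · exact one_ne_zero (congrFun (congrFun (congrArg Subtype.val h) 0) 1 : (1 : F) = 0)

/-- A pair of commuting elements from the two copies of `SL₂`. -/
theorem exists_order_mul (p : ℕ) [Fact p.Prime] [CharP F p] (S : SL2) (hco : Nat.Coprime (orderOf S) p) :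
    ∃ g : ↥(G2 F), orderOf g = p * orderOf S := by
  refine ⟨toG2 (leftHom S) * toG2 (rightHom (upperSL (1 : F))), ?_⟩
  have h1 : orderOf (toG2 (leftHom S)) = orderOf S :=
    orderOf_injective ((toG2 (F := F)).comp leftHom) leftRight_injective.1 S
  have h2 : orderOf (toG2 (rightHom (upperSL (1 : F)))) = p :=
    (orderOf_injective ((toG2 (F := F)).comp rightHom) leftRight_injective.2 _).trans (orderOf_upperSL p)
  rw [(show Commute _ _ from left_right_comm S _).orderOf_mul_eq_mul_orderOf_of_coprime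
    (by rw [h1, h2]; exact hco), h1, h2, mul_comm]

theorem exists_sl_order_sub_one :
    ∃ S : SL2, orderOf S = Fintype.card F - 1 := by
  obtain ⟨u, hu⟩ := IsCyclic.exists_ofOrder_eq_natCard (α := Fˣ)
  let d : Fˣ →* SL2 :=
    { toFun := fun u => ⟨!![(u : F), 0; 0, ((u⁻¹ : Fˣ) : F)], by simp [det_fin_two]⟩
      map_one' := Subtype.ext (by ext i j; fin_cases i <;> fin_cases j <;> simp)
      map_mul' := fun u v => Subtype.ext (show (!![((u * v : Fˣ) : F), 0; 0, (((u * v)⁻¹ : Fˣ) : F)] :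
          Matrix (Fin 2) (Fin 2) F) = !![(u : F), 0; 0, ((u⁻¹ : Fˣ) : F)] * !![(v : F), 0; 0, ((v⁻¹ : Fˣ) : F)] by
        ext i j; fin_cases i <;> fin_cases j <;> simp [Matrix.mul_apply, Fin.sum_univ_two, mul_comm]) }
  refine ⟨d u, ?_⟩
  rw [orderOf_injective d (fun a b h => Units.ext
    (congrFun (congrFun (congrArg Subtype.val h) 0) 0 : (a : F) = b)), hu, Nat.card_units,
    Nat.card_eq_fintype_card]

theorem exists_sl_order_add_one (p : ℕ) [Fact p.Prime] [CharP F p] :
    ∃ S : SL2, orderOf S = Fintype.card F + 1 := by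
  obtain ⟨S, hS⟩ := exists_singer_two (F := F) p
  set q := Fintype.card F
  have hq : 2 ≤ q := Fintype.one_lt_card
  have hfac : q ^ 2 - 1 = (q + 1) * (q - 1) := by simpa using Nat.sq_sub_sq q 1
  have hdet : ((S ^ (q - 1) : GL (Fin 2) F) : Matrix (Fin 2) (Fin 2) F).det = 1 := by
    rw [Units.val_pow_eq_pow_val, det_pow]
    exact FiniteField.pow_card_sub_one_eq_one _ ((Matrix.isUnit_iff_isUnit_det _).1 S.isUnit).ne_zero
  obtain ⟨T, hT⟩ : ∃ T : SL2, Matrix.SpecialLinearGroup.toGL T = S ^ (q - 1) :=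
    ⟨⟨_, hdet⟩, Units.ext rfl⟩
  refine ⟨T, ?_⟩
  rw [← orderOf_injective Matrix.SpecialLinearGroup.toGL Matrix.SpecialLinearGroup.toGL_injective, hT,
    orderOf_pow' S (by omega), hS, hfac, Nat.gcd_mul_left_left, Nat.mul_div_cancel _ (by omega)]

theorem coprime_of_dvd_char {p : ℕ} [hp : Fact p.Prime] [CharP F p] {n : ℕ}
    (h : n = Fintype.card F - 1 ∨ n = Fintype.card F + 1) : Nat.Coprime n p := by
  obtain ⟨e, -, he⟩ := FiniteField.card F p
  have hd : p ∣ Fintype.card F := he ▸ dvd_pow_self p e.ne_zero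
  have hq : 1 ≤ Fintype.card F := Fintype.card_pos
  refine (hp.out.coprime_iff_not_dvd.2 fun hdn => hp.out.not_dvd_one ?_).symm
  rcases h with rfl | rfl
  · have := Nat.dvd_sub hd hdn
    rwa [show Fintype.card F - (Fintype.card F - 1) = 1 by omega] at this
  · exact (Nat.dvd_add_right hd).1 hdn

theorem exists_order_mul_sub_one (p : ℕ) [Fact p.Prime] [CharP F p] :
    ∃ g : ↥(G2 F), orderOf g = p * (Fintype.card F - 1) := by
  obtain ⟨S, hS⟩ := exists_sl_order_sub_one (F := F)
  obtain ⟨g, hg⟩ := exists_order_mul p S (by rw [hS]; exact coprime_of_dvd_char (F := F) (Or.inl rfl))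
  exact ⟨g, by rw [hg, hS]⟩

theorem exists_order_mul_add_one (p : ℕ) [Fact p.Prime] [CharP F p] :
    ∃ g : ↥(G2 F), orderOf g = p * (Fintype.card F + 1) := by
  obtain ⟨S, hS⟩ := exists_sl_order_add_one (F := F) p
  obtain ⟨g, hg⟩ := exists_order_mul p S (by rw [hS]; exact coprime_of_dvd_char (F := F) (Or.inr rfl))
  exact ⟨g, by rw [hg, hS]⟩

open CfsgLib.Unitary CfsgLib.Spec53 CfsgLib.SpecUnitary in
set_option maxHeartbeats 1000000 in
/-- A special unitary matrix of order `q² - q + 1`. -/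
theorem exists_unitary_singer {L : Type*} [Field L] [Fintype L] {q : ℕ} (hF : Fintype.card L = q ^ 2)
    (p : ℕ) [Fact p.Prime] [CharP L p] :
    ∃ M : Matrix.SpecialLinearGroup (Fin 3) L, orderOf M = q ^ 2 - q + 1 ∧ cjT q M.1 * M.1 = 1 := by
  classical
  have hq := two_le_q hF
  obtain ⟨p', e, -, hc, -, hqe⟩ := exists_char hF
  obtain rfl : p' = p := CharP.eq L hc ‹CharP L p›
  obtain ⟨t, rfl⟩ := Nat.exists_eq_add_of_le hq
  have hM : (2 + t) ^ 2 - (2 + t) + 1 = 3 + t * (t + 3) := by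
    have h : (2 + t) ^ 2 + 1 = 3 + t * (t + 3) + (2 + t) := by ring
    omega
  rw [hM]
  set M := 3 + t * (t + 3)
  set K := FiniteField.Extension L p' 3
  haveI : Fintype K := Fintype.ofFinite K
  haveI : CharP K p' := charP_of_injective_algebraMap (algebraMap L K).injective p'
  have hfin : Module.finrank L K = 3 := FiniteField.finrank_extension L p' 3
  let b := Module.finBasisOfFinrankEq L K hfin
  have hK : Nat.card K = ((2 + t) ^ 2) ^ 3 := by
    rw [Nat.card_eq_fintype_card, Module.card_eq_pow_finrank (K := L), hfin, hF]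
  have hME : M * ((t + 3) * ((2 + t) ^ 3 - 1)) = Nat.card K - 1 := by
    rw [hK, ← pow_mul, show 2 * 3 = 3 * 2 from rfl, pow_mul,
      show ((2 + t) ^ 3) ^ 2 - 1 = ((2 + t) ^ 3 + 1) * ((2 + t) ^ 3 - 1) by
        simpa using Nat.sq_sub_sq ((2 + t) ^ 3) 1, ← mul_assoc]
    congr 1
    ring
  obtain ⟨y, hy0, hy⟩ := exists_generator_pow K (Nat.mul_ne_zero (by omega) (Nat.sub_ne_zero_of_lt
    (Nat.one_lt_pow (by norm_num) (by omega)))) hME
  have hy3 : y ^ ((2 + t) ^ 3 + 1) = 1 := (hy _).2 ⟨t + 3, by ring⟩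
  set A := Algebra.leftMulMatrix b y with hAdef
  have hdet : A.det = 1 := by
    rw [hAdef, ← Algebra.norm_eq_matrix_det]
    refine (algebraMap L K).injective ?_
    have hdiv : (((2 + t) ^ 2) ^ 3 - 1) / ((2 + t) ^ 2 - 1) = M * ((2 + t) ^ 2 + (2 + t) + 1) := by
      refine Nat.div_eq_of_eq_mul_left (Nat.sub_pos_of_lt (Nat.one_lt_pow (by norm_num) (by omega))) ?_
      have h1 : 1 ≤ ((2 + t) ^ 2) ^ 3 := Nat.one_le_pow _ _ (by positivity)
      have h2 : 1 ≤ (2 + t) ^ 2 := Nat.one_le_pow _ _ (by positivity)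
      zify [h1, h2]
      push_cast [M]
      ring
    rw [FiniteField.algebraMap_norm_eq_pow, map_one, hK, Nat.card_eq_fintype_card, hF, hdiv]
    exact (hy _).2 (dvd_mul_right _ _)
  set σ := iterateFrobenius K p' (e * 3)
  have hσ : ∀ z, σ z = z ^ (2 + t) ^ 3 := fun z => by
    rw [iterateFrobenius_def, hqe, ← pow_mul]
  have hσF : ∀ a : L, σ (algebraMap L K a) = algebraMap L K (a ^ (2 + t)) := by
    intro a
    rw [hσ, ← map_pow, pow_succ (2 + t) 2, pow_mul, ← hF, FiniteField.pow_card]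
  have hσsum : ∀ c : Fin 3 → L, σ (∑ k, c k • b k) = ∑ k, c k ^ (2 + t) • σ (b k) := by
    intro c
    rw [map_sum]
    exact Finset.sum_congr rfl fun k _ => by rw [Algebra.smul_def, map_mul, hσF, ← Algebra.smul_def]
  set X : Matrix (Fin 3) (Fin 3) L := Matrix.of fun i j => Algebra.trace L K (σ (b i) * b j) with hX
  have hXu : IsUnit X := by
    refine mulVec_injective_iff_isUnit.1 fun v v' hvv => ?_
    set w := ∑ j, (v j - v' j) • b j with hw
    have h0 : ∀ i, Algebra.trace L K (σ (b i) * w) = 0 := fun i => by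
      have := congrFun hvv i
      simp only [mulVec, dotProduct, hX, of_apply] at this
      rw [hw, Finset.mul_sum, map_sum]
      simp only [mul_smul_comm, map_smul, smul_eq_mul, sub_mul, Finset.sum_sub_distrib]
      simp only [mul_comm (v _), mul_comm (v' _)]
      exact sub_eq_zero.2 this
    have hw0 : w = 0 := by
      refine (traceForm_nondegenerate L K).2 w fun z => ?_
      obtain ⟨u, rfl⟩ := (Finite.injective_iff_surjective.1 (RingHom.injective σ)) z
      rw [Algebra.traceForm_apply, ← b.sum_repr u, hσsum, Finset.sum_mul, map_sum]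
      exact Finset.sum_eq_zero fun i _ => by rw [smul_mul_assoc, map_smul, h0, smul_zero]
    have hli := Fintype.linearIndependent_iff.1 b.linearIndependent _ hw0
    exact funext fun j => sub_eq_zero.1 (hli j)
  have hinv : cjT (2 + t) A * X * A = X := by
    ext i j
    have hcol : ∀ j, ∑ k, A k j • b k = y * b j := fun j => by
      simp only [hAdef, Algebra.leftMulMatrix_eq_repr_mul]
      exact b.sum_repr _
    have h1 : Algebra.trace L K (σ (y * b i) * (y * b j)) = X i j := by
      rw [hX, of_apply]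
      congr 1
      rw [map_mul, hσ y]
      linear_combination σ (b i) * b j * (hy3 : y ^ ((2 + t) ^ 3 + 1) = 1)
    rw [← h1, ← hcol i, ← hcol j, hσsum, Matrix.mul_apply, Finset.sum_mul_sum, Finset.sum_comm, map_sum]
    refine Finset.sum_congr rfl fun l _ => ?_
    rw [Matrix.mul_apply, Finset.sum_mul, map_sum]
    refine Finset.sum_congr rfl fun k _ => ?_
    rw [smul_mul_assoc, mul_smul_comm, map_smul, map_smul, hX]
    simp only [cjT, transpose_apply, Matrix.map_apply, of_apply, smul_eq_mul]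
    ring
  have hAu : IsUnit A := (isUnit_iff_isUnit_det A).2 (by rw [hdet]; exact isUnit_one)
  obtain ⟨Z, hZ⟩ := exists_conj_unitary hF A X hAu hXu hinv
  obtain ⟨T, hT⟩ : ∃ T : Matrix.SpecialLinearGroup (Fin 3) L,
      T.1 = (Z : Matrix (Fin 3) (Fin 3) L) * A * ((Z⁻¹ : GL (Fin 3) L) : Matrix (Fin 3) (Fin 3) L) :=
    ⟨⟨_, (Matrix.det_units_conj Z A).trans hdet⟩, rfl⟩
  refine ⟨T, ?_, by rw [hT]; exact hZ⟩
  have hoy : orderOf y = M :=
    Nat.dvd_antisymm (orderOf_dvd_of_pow_eq_one ((hy _).2 dvd_rfl)) ((hy _).1 (pow_orderOf_eq_one y))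
  rw [← hoy]
  refine orderOf_eq_of_pow_iff _ _ fun n => ?_
  rw [← (Algebra.leftMulMatrix_injective b).eq_iff (a := y ^ n), map_one, map_pow, ← hAdef,
    show T ^ n = 1 ↔ (T ^ n).1 = (1 : Matrix (Fin 3) (Fin 3) L) from
      ⟨fun h => by rw [h]; rfl, fun h => Subtype.ext h⟩, Matrix.SpecialLinearGroup.coe_pow]
  rw [hT]
  rw [Units.conj_pow]
  refine ⟨fun h => ?_, fun h => by rw [h, mul_one, Units.mul_inv]⟩
  have := congrArg (fun T => ((Z⁻¹ : GL (Fin 3) L) : Matrix (Fin 3) (Fin 3) L) * T * Z) h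
  simpa [Matrix.mul_assoc] using this

theorem exists_order_sq_sub (p : ℕ) [Fact p.Prime] [CharP F p] :
    ∃ g : ↥(G2 F), orderOf g = Fintype.card F ^ 2 - Fintype.card F + 1 := by
  obtain ⟨e, hp, he⟩ := FiniteField.card F p
  let L := FiniteField.Extension F p 2
  haveI : Fintype L := Fintype.ofFinite L
  haveI : CharP L p := charP_of_injective_algebraMap (algebraMap F L).injective p
  have hL : Fintype.card L = Fintype.card F ^ 2 := by
    rw [← Nat.card_eq_fintype_card (α := L), FiniteField.natCard_extension, Nat.card_eq_fintype_card]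
  obtain ⟨M, hM, hU⟩ := exists_unitary_singer (q := Fintype.card F) hL p
  have hφ : ∀ x : L, iterateFrobenius L p e x = x ^ Fintype.card F := fun x => by
    rw [he]; exact iterateFrobenius_def p e x
  obtain ⟨g, hg⟩ := exists_of_unitary (algebraMap F L) hL (iterateFrobenius L p e) hφ M (by
    have : M.1.map (iterateFrobenius L p e) = M.1.map fun x => x ^ Fintype.card F := by
      ext i j; exact hφ _
    rw [this]; exact hU)
  exact ⟨g, by rw [hg, hM]⟩

end CfsgLib.G2Oct
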