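import Cfsg.Agent.G2Oct.ElementOrder
import Mathlib.Data.ZMod.Basic

/-!
Elements of the small exceptional orders in `G₂`.
-/

set_option autoImplicit false

namespace CfsgLib.G2Oct

open Matrix Cfsg.Lie

theorem regMat_three : (rootMat (ZMod 3) 7 1 * rootMat (ZMod 3) 6 1) ^ 3 ≠ 1 ∧
    (rootMat (ZMod 3) 7 1 * rootMat (ZMod 3) 6 1) ^ 9 = 1 := ⟨by decide +kernel, by decide +kernel⟩

theorem regMat_five : (rootMat (ZMod 5) 7 1 * rootMat (ZMod 5) 6 1) ^ 5 ≠ 1 ∧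
    (rootMat (ZMod 5) 7 1 * rootMat (ZMod 5) 6 1) ^ 25 = 1 := ⟨by decide +kernel, by decide +kernel⟩

theorem regMat_two : (rootMat (ZMod 2) 7 1 * rootMat (ZMod 2) 6 1) ^ (2 ^ 2) ≠ 1 ∧
    (rootMat (ZMod 2) 7 1 * rootMat (ZMod 2) 6 1) ^ (2 ^ (2 + 1)) = 1 :=
  ⟨by decide +kernel, by decide +kernel⟩

theorem twelveMat : (rootMat (ZMod 2) 0 1 * rootMat (ZMod 2) 2 1 * rootMat (ZMod 2) 9 1) ^ 12 = 1 ∧
    (rootMat (ZMod 2) 0 1 * rootMat (ZMod 2) 2 1 * rootMat (ZMod 2) 9 1) ^ 4 ≠ 1 ∧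
    (rootMat (ZMod 2) 0 1 * rootMat (ZMod 2) 2 1 * rootMat (ZMod 2) 9 1) ^ 6 ≠ 1 :=
  ⟨by decide +kernel, by decide +kernel, by decide +kernel⟩

variable {F : Type*} [Field F]

theorem exists_order_prime_sq (p : ℕ) [hp : Fact p.Prime] [CharP F p] (h : p = 3 ∨ p = 5) :
    ∃ g : ↥(G2 F), orderOf g = p ^ 2 := by
  let g : ↥(G2 (ZMod p)) := rootEl 7 1 * rootEl 6 1
  refine ⟨mapG2 (ZMod.castHom dvd_rfl F) g, ?_⟩
  rw [orderOf_injective _ (mapG2_injective _) g]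
  have key : (rootMat (ZMod p) 7 1 * rootMat (ZMod p) 6 1) ^ p ≠ 1 ∧
      (rootMat (ZMod p) 7 1 * rootMat (ZMod p) 6 1) ^ p ^ 2 = 1 := by
    rcases h with rfl | rfl
    exacts [regMat_three, regMat_five]
  have hg : g2Mat g = rootMat (ZMod p) 7 1 * rootMat (ZMod p) 6 1 := g2Mat_mul _ _
  refine orderOf_eq_prime_pow (n := 1) (fun e => key.1 ?_) (g2Mat_injective ?_)
  · rw [pow_one] at e; rw [← hg, ← g2Mat_pow, e, g2Mat_one]
  · rw [g2Mat_pow, hg, key.2, g2Mat_one]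

theorem exists_order_eight [CharP F 2] : ∃ g : ↥(G2 F), orderOf g = 8 := by
  haveI : Fact (Nat.Prime 2) := ⟨Nat.prime_two⟩
  let g : ↥(G2 (ZMod 2)) := rootEl 7 1 * rootEl 6 1
  refine ⟨mapG2 (ZMod.castHom dvd_rfl F) g, ?_⟩
  rw [orderOf_injective _ (mapG2_injective _) g]
  have key := regMat_two
  have hg : g2Mat g = rootMat (ZMod 2) 7 1 * rootMat (ZMod 2) 6 1 := g2Mat_mul _ _
  refine (orderOf_eq_prime_pow (p := 2) (n := 2) (fun e => key.1 ?_) (g2Mat_injective ?_)).trans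
    (by norm_num)
  · rw [← hg, ← g2Mat_pow, e, g2Mat_one]
  · rw [g2Mat_pow, hg, key.2, g2Mat_one]

theorem exists_order_twelve [CharP F 2] : ∃ g : ↥(G2 F), orderOf g = 12 := by
  haveI : Fact (Nat.Prime 2) := ⟨Nat.prime_two⟩
  let g : ↥(G2 (ZMod 2)) := rootEl 0 1 * rootEl 2 1 * rootEl 9 1
  refine ⟨mapG2 (ZMod.castHom dvd_rfl F) g, ?_⟩
  rw [orderOf_injective _ (mapG2_injective _) g]
  set M := rootMat (ZMod 2) 0 1 * rootMat (ZMod 2) 2 1 * rootMat (ZMod 2) 9 1 with hM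
  obtain ⟨k12, k4, k6⟩ : M ^ 12 = 1 ∧ M ^ 4 ≠ 1 ∧ M ^ 6 ≠ 1 := twelveMat
  have hg : g2Mat g = M := by
    show g2Mat (rootEl 0 1 * rootEl 2 1 * rootEl 9 1) = M
    rw [g2Mat_mul, g2Mat_mul]; rfl
  have hne : ∀ n, M ^ n ≠ 1 → g ^ n ≠ 1 := fun n h e => h (by rw [← hg, ← g2Mat_pow, e, g2Mat_one])
  have hd : orderOf g ∣ 12 :=
    orderOf_dvd_of_pow_eq_one (g2Mat_injective (by rw [g2Mat_pow, hg, k12, g2Mat_one]))
  have h4 : ¬ orderOf g ∣ 4 := fun h => hne 4 k4 (orderOf_dvd_iff_pow_eq_one.1 h)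
  have h6 : ¬ orderOf g ∣ 6 := fun h => hne 6 k6 (orderOf_dvd_iff_pow_eq_one.1 h)
  have hle := Nat.le_of_dvd (by norm_num) hd
  interval_cases h : orderOf g <;> omega

end CfsgLib.G2Oct
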