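import Mathlib.FieldTheory.Separable
import Mathlib.Tactic.LinearCombination
import Mathlib.Tactic.FieldSimp
import Mathlib.Tactic.Ring
import Mathlib.Algebra.GroupWithZero.Units.Lemmas

/-!
The possible eigenvalue triples of a torus element of `G₂` that is stable under the Frobenius map.
-/

set_option autoImplicit false

namespace CfsgLib.G2Oct

variable {K : Type*} [Field K] [DecidableEq K]

/-- How often `l` occurs among the six eigenvalues. -/
def sixCount (a b c l : K) : ℕ :=
  ((if a = l then 1 else 0) + (if a⁻¹ = l then 1 else 0)) +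
    ((if b = l then 1 else 0) + (if b⁻¹ = l then 1 else 0)) +
    ((if c = l then 1 else 0) + (if c⁻¹ = l then 1 else 0))

/-- Stability of the six eigenvalues under a map. -/
def SixStable (φ : K →+* K) (a b c : K) : Prop :=
  ∀ l, l ≠ 1 → sixCount a b c (φ l) = sixCount a b c l

/-- The map fixes, or inverts, the three eigenvalues. -/
def FixOrInv (φ : K →+* K) (a b c : K) : Prop :=
  (φ a = a ∧ φ b = b ∧ φ c = c) ∨ (φ a = a⁻¹ ∧ φ b = b⁻¹ ∧ φ c = c⁻¹)

/-- The three kinds of maximal tori. -/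
def TorusKind (φ : K →+* K) (a b c : K) : Prop :=
  (φ (φ a) = a ∧ φ (φ b) = b ∧ φ (φ c) = c) ∨
  (φ (φ a) * φ a * a = 1 ∧ φ (φ b) * φ b * b = 1 ∧ φ (φ c) * φ c * c = 1) ∨
  (φ (φ a) * a = φ a ∧ φ (φ b) * b = φ b ∧ φ (φ c) * c = φ c)

/-- No coincidences except for the eigenvalue minus one. -/
def SixSparse (a b c : K) : Prop :=
  ∀ l, l ≠ 1 → sixCount a b c l ≤ 1 ∨ (l = -1 ∧ sixCount a b c l ≤ 2)

variable {φ : K →+* K} {a b c : K}

omit [DecidableEq K] in
theorem triple_ne_zero (h : a * b * c = 1) : a ≠ 0 ∧ b ≠ 0 ∧ c ≠ 0 := by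
  refine ⟨?_, ?_, ?_⟩ <;> (intro h0; simp [h0] at h)

theorem sixCount_rot (l : K) : sixCount b c a l = sixCount a b c l := by
  simp only [sixCount]; omega

theorem sixCount_swap (l : K) : sixCount a c b l = sixCount a b c l := by
  simp only [sixCount]; omega

theorem SixStable.rot (h : SixStable φ a b c) : SixStable φ b c a := fun l hl =>
  (sixCount_rot _).trans ((h l hl).trans (sixCount_rot _).symm)

theorem SixStable.swap (h : SixStable φ a b c) : SixStable φ a c b := fun l hl =>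
  (sixCount_swap _).trans ((h l hl).trans (sixCount_swap _).symm)

theorem FixOrInv.torusKind (h : FixOrInv φ a b c) : TorusKind φ a b c := by
  rcases h with ⟨x, y, z⟩ | ⟨x, y, z⟩
  · exact Or.inl ⟨by rw [x, x], by rw [y, y], by rw [z, z]⟩
  · exact Or.inl ⟨by rw [x, map_inv₀, x, inv_inv], by rw [y, map_inv₀, y, inv_inv],
      by rw [z, map_inv₀, z, inv_inv]⟩

theorem pos_of_mem {l : K} (h : l = a ∨ l = a⁻¹) : 1 ≤ sixCount a b c l := by
  rcases h with rfl | rfl <;> simp [sixCount] <;> omega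

theorem mem_of_pos {l : K} (h : 1 ≤ sixCount a b c l) :
    l = a ∨ l = a⁻¹ ∨ l = b ∨ l = b⁻¹ ∨ l = c ∨ l = c⁻¹ := by
  by_contra hn
  push Not at hn
  obtain ⟨h1, h2, h3, h4, h5, h6⟩ := hn
  simp [sixCount, h1.symm, h2.symm, h3.symm, h4.symm, h5.symm, h6.symm] at h

theorem SixStable.image (hs : SixStable φ a b c) (h1 : a ≠ 1) :
    φ a = a ∨ φ a = a⁻¹ ∨ φ a = b ∨ φ a = b⁻¹ ∨ φ a = c ∨ φ a = c⁻¹ :=
  mem_of_pos (by rw [hs a h1]; exact pos_of_mem (Or.inl rfl))

theorem fixOrInv_of_one (h : a * b * c = 1) (hs : SixStable φ a b c) (ha : a = 1) :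
    FixOrInv φ a b c := by
  subst ha
  have hc : c = b⁻¹ := (inv_eq_of_mul_eq_one_right (by simpa using h)).symm
  subst hc
  by_cases hb : b = 1
  · subst hb; left; simp
  have hb' : φ b ≠ 1 := fun e => hb (φ.injective (by rw [e, map_one]))
  rcases hs.rot.image hb with e | e | e | e | e | e
  · exact Or.inl ⟨map_one φ, e, by rw [map_inv₀, e]⟩
  · exact Or.inr ⟨by rw [map_one, inv_one], e, by rw [map_inv₀, e]⟩
  · exact Or.inr ⟨by rw [map_one, inv_one], e, by rw [map_inv₀, e]⟩
  · rw [inv_inv] at e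
    exact Or.inl ⟨map_one φ, e, by rw [map_inv₀, e]⟩
  · exact absurd e hb'
  · exact absurd (e.trans inv_one) hb'

theorem fixOrInv_of_eq (h : a * b * c = 1) (hs : SixStable φ a b c) (hab : a = b) (ha : a ≠ 1)
    (hc : c ≠ 1) : FixOrInv φ a b c := by
  subst hab
  obtain ⟨ha0, -, hc0⟩ := triple_ne_zero h
  have hsq : a * a ≠ 1 := fun e => hc (by rw [e, one_mul] at h; exact h)
  have hc' : c = (a * a)⁻¹ := (inv_eq_of_mul_eq_one_right h).symm
  suffices φ a = a ∨ φ a = a⁻¹ by
    rcases this with e | e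
    · exact Or.inl ⟨e, e, by rw [hc', map_inv₀, map_mul, e]⟩
    · exact Or.inr ⟨e, e, by rw [hc', map_inv₀, map_mul, e]; simp⟩
  by_contra hne
  push Not at hne
  have him : φ a = c ∨ φ a = c⁻¹ := by
    rcases hs.image ha with e | e | e | e | e | e
    · exact absurd e hne.1
    · exact absurd e hne.2
    · exact absurd e hne.1
    · exact absurd e hne.2
    · exact Or.inl e
    · exact Or.inr e
  have h2 : 2 ≤ sixCount a a c (φ a) := by rw [hs a ha]; simp [sixCount]; omega
  have hcc : c ≠ c⁻¹ := by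
    intro e
    have hcc1 : c * c = 1 := by
      conv_lhs => arg 2; rw [e]
      exact mul_inv_cancel₀ hc0
    have ha4 : a * a = c := by
      calc a * a = a * a * (c * c) := by rw [hcc1, mul_one]
        _ = c := by linear_combination c * h
    have hc1 : c = -1 := by
      rcases mul_eq_zero.1 (show (c - 1) * (c + 1) = 0 by linear_combination hcc1) with e' | e'
      · exact absurd (sub_eq_zero.1 e') hc
      · exact eq_neg_of_add_eq_zero_left e'
    have him' : φ a = -1 := by
      rcases him with e' | e'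
      · rw [e', hc1]
      · rw [e', ← e, hc1]
    have : a = -1 := φ.injective (by rw [him', map_neg, map_one])
    exact hsq (by rw [this]; ring)
  rcases him with e | e <;> rw [e] at h2 hne
  · simp [sixCount, hcc.symm, Ne.symm hne.1, Ne.symm hne.2] at h2
  · simp [sixCount, hcc, Ne.symm hne.1, Ne.symm hne.2] at h2

theorem sparse_of_neg_one (h : a * b * c = 1) (ha : a = -1) (ha1 : a ≠ 1) (hb1 : b ≠ 1) (hc1 : c ≠ 1)
    (hab : a ≠ b) (hac : a ≠ c) (hbc : b ≠ c) : SixSparse a b c := by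
  obtain ⟨-, hb0, hc0⟩ := triple_ne_zero h
  intro l hl
  have hb : b * b ≠ 1 := fun e => by
    rcases mul_eq_zero.1 (show (b - 1) * (b + 1) = 0 by linear_combination e) with e' | e'
    · exact hb1 (sub_eq_zero.1 e')
    · exact hab (ha.trans (eq_neg_of_add_eq_zero_left e').symm)
  have hc : c * c ≠ 1 := fun e => by
    rcases mul_eq_zero.1 (show (c - 1) * (c + 1) = 0 by linear_combination e) with e' | e'
    · exact hc1 (sub_eq_zero.1 e')
    · exact hac (ha.trans (eq_neg_of_add_eq_zero_left e').symm)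
  have hbinv : b ≠ b⁻¹ := fun e => hb (by conv_lhs => arg 2; rw [e]
                                          exact mul_inv_cancel₀ hb0)
  have hcinv : c ≠ c⁻¹ := fun e => hc (by conv_lhs => arg 2; rw [e]
                                          exact mul_inv_cancel₀ hc0)
  have hbc' : b * c ≠ 1 := fun e => ha1 (by rw [mul_assoc, e, mul_one] at h; exact h)
  by_cases hl1 : l = -1
  · right
    refine ⟨hl1, ?_⟩
    subst hl1
    have e1 : b ≠ -1 := fun e => hb (by rw [e]; ring)
    have e2 : b⁻¹ ≠ -1 := fun e => hb (by rw [← inv_inv b, e]; simp)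
    have e3 : c ≠ -1 := fun e => hc (by rw [e]; ring)
    have e4 : c⁻¹ ≠ -1 := fun e => hc (by rw [← inv_inv c, e]; simp)
    simp only [sixCount, if_neg e1, if_neg e2, if_neg e3, if_neg e4]
    split_ifs <;> omega
  · left
    have e1 : a ≠ l := fun e => hl1 (e.symm.trans ha)
    have e2 : a⁻¹ ≠ l := fun e => hl1 (by rw [← e, ha, inv_neg, inv_one])
    simp only [sixCount, if_neg e1, if_neg e2]
    split_ifs with p1 p2 p3 p4 <;> first
      | omega
      | exact absurd (p1.trans p2.symm) hbinv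
      | exact absurd (p1.trans p3.symm) hbc
      | (exfalso; apply hbc'; subst_vars; simp_all)

theorem torusKind_of_neg_one (h : a * b * c = 1) (hs : SixStable φ a b c) (ha : a = -1)
    (hb1 : b ≠ 1) (hab : a ≠ b) : TorusKind φ a b c := by
  obtain ⟨-, hb0, -⟩ := triple_ne_zero h
  have hc : c = -b⁻¹ := by
    subst ha
    rw [← inv_neg]
    exact (inv_eq_of_mul_eq_one_right (show -b * c = 1 by linear_combination h)).symm
  have hfa : φ a = a := by rw [ha, map_neg, map_one]
  suffices φ (φ b) = b by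
    exact Or.inl ⟨by rw [hfa, hfa], this, by rw [hc, map_neg, map_inv₀, map_neg, map_inv₀, this]⟩
  rcases hs.rot.image hb1 with e | e | e | e | e | e
  · rw [e, e]
  · rw [e, map_inv₀, e, inv_inv]
  · rw [hc] at e; rw [e, map_neg, map_inv₀, e]; simp
  · rw [hc, inv_neg, inv_inv] at e; rw [e, map_neg, e, neg_neg]
  · exact absurd (φ.injective (hfa.trans e.symm)) hab
  · refine absurd (φ.injective (hfa.trans ?_)) hab
    rw [e, ha, inv_neg, inv_one]

omit [DecidableEq K] in
theorem sq_of_mixed (h : a * b * c = 1) (h' : a⁻¹ * b * c = 1) : a = a⁻¹ := by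
  have : b * c ≠ 0 := mul_ne_zero (triple_ne_zero h).2.1 (triple_ne_zero h).2.2
  exact mul_right_cancel₀ this (by rw [← mul_assoc, h, ← mul_assoc, h'])

omit [DecidableEq K] in
theorem sq_of_mixed' (h : a * b * c = 1) (h' : a * b⁻¹ * c⁻¹ = 1) : a = a⁻¹ := by
  refine sq_of_mixed h ?_
  have h2 : (a * b⁻¹ * c⁻¹)⁻¹ = 1 := by rw [h', inv_one]
  rwa [mul_inv, mul_inv, inv_inv, inv_inv] at h2

/-- The classification. -/
theorem triple_cases (h : a * b * c = 1) (hs : SixStable φ a b c) :
    FixOrInv φ a b c ∨ (TorusKind φ a b c ∧ SixSparse a b c) := by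
  by_cases h1 : a = 1
  · exact Or.inl (fixOrInv_of_one h hs h1)
  by_cases h2 : b = 1
  · left
    rcases fixOrInv_of_one (by linear_combination h) hs.rot h2 with ⟨x, y, z⟩ | ⟨x, y, z⟩
    exacts [Or.inl ⟨z, x, y⟩, Or.inr ⟨z, x, y⟩]
  by_cases h3 : c = 1
  · left
    rcases fixOrInv_of_one (by linear_combination h) hs.rot.rot h3 with ⟨x, y, z⟩ | ⟨x, y, z⟩
    exacts [Or.inl ⟨y, z, x⟩, Or.inr ⟨y, z, x⟩]
  by_cases hab : a = b
  · exact Or.inl (fixOrInv_of_eq h hs hab h1 h3)
  by_cases hbc : b = c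
  · left
    rcases fixOrInv_of_eq (by linear_combination h) hs.rot hbc h2 h1 with ⟨x, y, z⟩ | ⟨x, y, z⟩
    exacts [Or.inl ⟨z, x, y⟩, Or.inr ⟨z, x, y⟩]
  by_cases hac : a = c
  · left
    rcases fixOrInv_of_eq (by linear_combination h) hs.swap hac h1 h2 with ⟨x, y, z⟩ | ⟨x, y, z⟩
    exacts [Or.inl ⟨x, z, y⟩, Or.inr ⟨x, z, y⟩]
  obtain ⟨ha0, hb0, hc0⟩ := triple_ne_zero h
  have sqcases : ∀ {x : K}, x ≠ 0 → x ≠ 1 → x = x⁻¹ → x = -1 := fun {x} hx hx1 e => by
    have e' : x * x = 1 := by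
      conv_lhs => arg 2; rw [e]
      exact mul_inv_cancel₀ hx
    rcases mul_eq_zero.1 (show (x - 1) * (x + 1) = 0 by linear_combination e') with d | d
    · exact absurd (sub_eq_zero.1 d) hx1
    · exact eq_neg_of_add_eq_zero_left d
  right
  by_cases hA : a = a⁻¹
  · have ha := sqcases ha0 h1 hA
    exact ⟨torusKind_of_neg_one h hs ha h2 hab, sparse_of_neg_one h ha h1 h2 h3 hab hac hbc⟩
  by_cases hB : b = b⁻¹
  · have hb := sqcases hb0 h2 hB
    have h' : b * c * a = 1 := by linear_combination h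
    refine ⟨?_, fun l hl => ?_⟩
    · rcases torusKind_of_neg_one h' hs.rot hb h3 hbc with ⟨x, y, z⟩ | ⟨x, y, z⟩ | ⟨x, y, z⟩
      exacts [Or.inl ⟨z, x, y⟩, Or.inr (Or.inl ⟨z, x, y⟩), Or.inr (Or.inr ⟨z, x, y⟩)]
    · have := sparse_of_neg_one h' hb h2 h3 h1 hbc (Ne.symm hab) (Ne.symm hac) l hl
      rwa [sixCount_rot] at this
  by_cases hC : c = c⁻¹
  · have hc := sqcases hc0 h3 hC
    have h' : c * a * b = 1 := by linear_combination h
    refine ⟨?_, fun l hl => ?_⟩
    · rcases torusKind_of_neg_one h' hs.rot.rot hc h1 (Ne.symm hac) with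
        ⟨x, y, z⟩ | ⟨x, y, z⟩ | ⟨x, y, z⟩
      exacts [Or.inl ⟨y, z, x⟩, Or.inr (Or.inl ⟨y, z, x⟩), Or.inr (Or.inr ⟨y, z, x⟩)]
    · have := sparse_of_neg_one h' hc h3 h1 h2 (Ne.symm hac) (Ne.symm hbc) hab l hl
      rwa [sixCount_rot, sixCount_rot] at this
  have hab' : a ≠ b⁻¹ := fun e => h3 (by rw [e, inv_mul_cancel₀ hb0, one_mul] at h; exact h)
  have hac' : a ≠ c⁻¹ := fun e => h2 (by
    have : c⁻¹ * b * c = 1 := e ▸ h
    rwa [mul_comm (c⁻¹) b, mul_assoc, inv_mul_cancel₀ hc0, mul_one] at this)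
  have hbc' : b ≠ c⁻¹ := fun e => h1 (by
    have : a * c⁻¹ * c = 1 := e ▸ h
    rwa [mul_assoc, inv_mul_cancel₀ hc0, mul_one] at this)
  have ab1 : a⁻¹ ≠ b⁻¹ := fun e => hab (inv_injective e)
  have ab2 : a⁻¹ ≠ b := fun e => hab' (by rw [← e, inv_inv])
  have ac1 : a⁻¹ ≠ c⁻¹ := fun e => hac (inv_injective e)
  have ac2 : a⁻¹ ≠ c := fun e => hac' (by rw [← e, inv_inv])
  have bc1 : b⁻¹ ≠ c⁻¹ := fun e => hbc (inv_injective e)
  have bc2 : b⁻¹ ≠ c := fun e => hbc' (by rw [← e, inv_inv])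
  refine ⟨?_, fun l _ => Or.inl ?_⟩
  swap
  · simp only [sixCount]
    by_cases p1 : a = l
    · subst p1; simp [Ne.symm hA, Ne.symm hab, Ne.symm hac, ab2.symm, ac2.symm, Ne.symm hab', Ne.symm hac']
    by_cases p2 : a⁻¹ = l
    · subst p2; simp [hA, Ne.symm ab1, Ne.symm ab2, Ne.symm ac1, Ne.symm ac2]
    by_cases p3 : b = l
    · subst p3; simp [p1, p2, Ne.symm hB, Ne.symm hbc, Ne.symm hbc']
    by_cases p4 : b⁻¹ = l
    · subst p4; simp [p1, p2, hB, Ne.symm bc1, Ne.symm bc2]
    simp only [if_neg p1, if_neg p2, if_neg p3, if_neg p4]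
    split_ifs with p5 p6 <;> first | omega | exact absurd (p5.trans p6.symm) hC
  have fia : φ a⁻¹ = (φ a)⁻¹ := map_inv₀ φ a
  have fib : φ b⁻¹ = (φ b)⁻¹ := map_inv₀ φ b
  have fic : φ c⁻¹ = (φ c)⁻¹ := map_inv₀ φ c
  have hp : φ a * φ b * φ c = 1 := by rw [← map_mul, ← map_mul, h, map_one]
  -- images of different eigenvalues are different
  have key : ∀ {x y z : K}, x ≠ y → x ≠ y⁻¹ → (φ x = z ∨ φ x = z⁻¹) → (φ y = z ∨ φ y = z⁻¹) →
      False := by
    intro x y z hxy hxy' hx hy
    rcases hx with hx | hx <;> rcases hy with hy | hy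
    · exact hxy (φ.injective (hx.trans hy.symm))
    · exact hxy' (φ.injective (by rw [map_inv₀, hx, hy, inv_inv]))
    · exact hxy' (φ.injective (by rw [map_inv₀, hx, hy]))
    · exact hxy (φ.injective (hx.trans hy.symm))
  have fixcase : ∀ {x y z : K}, x * y * z = 1 → SixStable φ x y z → y ≠ 1 → z ≠ 1 →
      x ≠ y → x ≠ y⁻¹ → x ≠ z → x ≠ z⁻¹ → y ≠ z → y ≠ z⁻¹ → y ≠ y⁻¹ → z ≠ z⁻¹ →
      φ x = x ∨ φ x = x⁻¹ → φ (φ x) = x ∧ φ (φ y) = y ∧ φ (φ z) = z := by
    intro x y z hxyz hst hy1 hz1 hxy hxy' hxz hxz' hyz hyz' hyy hzz hx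
    have hpx : φ x * φ y * φ z = 1 := by rw [← map_mul, ← map_mul, hxyz, map_one]
    have hxx : φ (φ x) = x := by
      rcases hx with e | e
      · rw [e, e]
      · rw [e, map_inv₀, e, inv_inv]
    suffices φ (φ y) = y from ⟨hxx, this, by
      have hz : z = (x * y)⁻¹ := (inv_eq_of_mul_eq_one_right hxyz).symm
      rw [hz, map_inv₀, map_inv₀, map_mul, map_mul, hxx, this]⟩
    rcases hst.rot.image hy1 with e | e | e | e | e | e
    · rw [e, e]
    · rw [e, map_inv₀, e, inv_inv]
    · rcases hst.rot.rot.image hz1 with d | d | d | d | d | d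
      · exact absurd (key hyz hyz' (Or.inl e) (Or.inl d)) id
      · exact absurd (key hyz hyz' (Or.inl e) (Or.inr d)) id
      · exact absurd (key hxz hxz' hx (Or.inl d)) id
      · exact absurd (key hxz hxz' hx (Or.inr d)) id
      · rw [e, d]
      · rw [e, d] at hpx
        rcases hx with hx | hx <;> rw [hx] at hpx
        · exact absurd (sq_of_mixed (a := y) (b := x) (c := z) (by linear_combination hxyz)
            (by linear_combination hpx)) hyy
        · exact absurd (sq_of_mixed' (a := z) (b := x) (c := y) (by linear_combination hxyz)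
            (by linear_combination hpx)) hzz
    · rcases hst.rot.rot.image hz1 with d | d | d | d | d | d
      · exact absurd (key hyz hyz' (Or.inr e) (Or.inl d)) id
      · exact absurd (key hyz hyz' (Or.inr e) (Or.inr d)) id
      · exact absurd (key hxz hxz' hx (Or.inl d)) id
      · exact absurd (key hxz hxz' hx (Or.inr d)) id
      · rw [e, d] at hpx
        rcases hx with hx | hx <;> rw [hx] at hpx
        · exact absurd (sq_of_mixed (a := z) (b := x) (c := y) (by linear_combination hxyz)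
            (by linear_combination hpx)) hzz
        · exact absurd (sq_of_mixed' (a := y) (b := x) (c := z) (by linear_combination hxyz)
            (by linear_combination hpx)) hyy
      · rw [e, map_inv₀, d, inv_inv]
    · exact absurd (key hxy hxy' hx (Or.inl e)) id
    · exact absurd (key hxy hxy' hx (Or.inr e)) id
  by_cases fa : φ a = a ∨ φ a = a⁻¹
  · exact Or.inl (fixcase h hs h2 h3 hab hab' hac hac' hbc hbc' hB hC fa)
  by_cases fb : φ b = b ∨ φ b = b⁻¹
  · obtain ⟨x, y, z⟩ := fixcase (x := b) (y := c) (z := a) (by linear_combination h) hs.rot h3 h1 hbc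
      hbc' (Ne.symm hab) (Ne.symm ab2) (Ne.symm hac) (Ne.symm ac2) hC hA fb
    exact Or.inl ⟨z, x, y⟩
  by_cases fc : φ c = c ∨ φ c = c⁻¹
  · obtain ⟨x, y, z⟩ := fixcase (x := c) (y := a) (z := b) (by linear_combination h) hs.rot.rot h1 h2
      (Ne.symm hac) (Ne.symm ac2) (Ne.symm hbc) (Ne.symm bc2) hab hab' hA hB fc
    exact Or.inl ⟨y, z, x⟩
  push Not at fa fb fc
  have cyc : ∀ {x y z : K}, x * y * z = 1 → x ≠ x⁻¹ → y ≠ y⁻¹ → z ≠ z⁻¹ →
      (φ x = y ∨ φ x = y⁻¹) → (φ y = z ∨ φ y = z⁻¹) → (φ z = x ∨ φ z = x⁻¹) →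
      (φ (φ x) * φ x * x = 1 ∧ φ (φ y) * φ y * y = 1 ∧ φ (φ z) * φ z * z = 1) ∨
      (φ (φ x) * x = φ x ∧ φ (φ y) * y = φ y ∧ φ (φ z) * z = φ z) := by
    intro x y z hxyz hxx hyy hzz hx hy hz
    have hpx : φ x * φ y * φ z = 1 := by rw [← map_mul, ← map_mul, hxyz, map_one]
    obtain ⟨x0, y0, z0⟩ := triple_ne_zero hxyz
    rcases hx with hx | hx <;> rcases hy with hy | hy <;> rcases hz with hz | hz <;>
      rw [hx, hy, hz] at hpx
    · left
      refine ⟨?_, ?_, ?_⟩ <;> simp only [hx, hy, hz] <;> linear_combination hxyz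
    · exact absurd (sq_of_mixed (a := x) (b := y) (c := z) hxyz (by linear_combination hpx)) hxx
    · exact absurd (sq_of_mixed (a := z) (b := x) (c := y) (by linear_combination hxyz)
        (by linear_combination hpx)) hzz
    · exact absurd (sq_of_mixed' (a := y) (b := x) (c := z) (by linear_combination hxyz)
        (by linear_combination hpx)) hyy
    · exact absurd (sq_of_mixed (a := y) (b := x) (c := z) (by linear_combination hxyz)
        (by linear_combination hpx)) hyy
    · exact absurd (sq_of_mixed' (a := z) (b := x) (c := y) (by linear_combination hxyz)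
        (by linear_combination hpx)) hzz
    · exact absurd (sq_of_mixed' (a := x) (b := y) (c := z) hxyz (by linear_combination hpx)) hxx
    · right
      refine ⟨?_, ?_, ?_⟩ <;> simp only [hx, hy, hz, map_inv₀, inv_inv]
      · exact eq_inv_of_mul_eq_one_left (by linear_combination hxyz)
      · exact eq_inv_of_mul_eq_one_left (by linear_combination hxyz)
      · exact eq_inv_of_mul_eq_one_left (by linear_combination hxyz)
  have hab2 : b ≠ a⁻¹ := Ne.symm ab2
  have hac2 : c ≠ a⁻¹ := Ne.symm ac2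
  rcases hs.image h1 with e | e | e | e | e | e
  · exact absurd e fa.1
  · exact absurd e fa.2
  rotate_left 2
  all_goals rcases hs.rot.image h2 with d | d | d | d | d | d
  all_goals first
    | exact absurd d fb.1
    | exact absurd d fb.2
    | exact absurd (key hab hab' (Or.inl e) (Or.inl d)) id
    | exact absurd (key hab hab' (Or.inl e) (Or.inr d)) id
    | exact absurd (key hab hab' (Or.inr e) (Or.inl d)) id
    | exact absurd (key hab hab' (Or.inr e) (Or.inr d)) id
    | skip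
  all_goals rcases hs.rot.rot.image h3 with g | g | g | g | g | g
  all_goals first
    | exact absurd g fc.1
    | exact absurd g fc.2
    | exact absurd (key hac hac' (Or.inl e) (Or.inl g)) id
    | exact absurd (key hac hac' (Or.inl e) (Or.inr g)) id
    | exact absurd (key hac hac' (Or.inr e) (Or.inl g)) id
    | exact absurd (key hac hac' (Or.inr e) (Or.inr g)) id
    | exact absurd (key hbc hbc' (Or.inl d) (Or.inl g)) id
    | exact absurd (key hbc hbc' (Or.inl d) (Or.inr g)) id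
    | exact absurd (key hbc hbc' (Or.inr d) (Or.inl g)) id
    | exact absurd (key hbc hbc' (Or.inr d) (Or.inr g)) id
    | (refine Or.inr (cyc h hA hB hC ?_ ?_ ?_) <;> simp [e, d, g]; done)
    | (refine Or.inr ((cyc (x := a) (y := c) (z := b) ?_ hA hC hB ?_ ?_ ?_).imp
        (fun ⟨x, y, z⟩ => ⟨x, z, y⟩) (fun ⟨x, y, z⟩ => ⟨x, z, y⟩))
       · linear_combination h
       all_goals simp [e, d, g])

end CfsgLib.G2Oct
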