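import Cfsg.Agent.G2Oct.Diagonal
import Cfsg.Agent.G2Oct.TripleArith
import Mathlib.LinearAlgebra.Eigenspace.Zero
import Mathlib.Algebra.CharP.Lemmas

/-!
A unipotent element that commutes with a torus element of `G₂`: bounds for the nilpotent part on the
eigenspaces.
-/

set_option autoImplicit false

namespace CfsgLib.G2Oct

open Matrix Cfsg.Lie

variable {K : Type*} [Field K] [DecidableEq K]

/-- The vectors supported on the eigenvalue `l`. -/
def eigSupp (w : Fin 8 → K) (l : K) : Submodule K (Fin 8 → K) where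
  carrier := {x | ∀ i, w i ≠ l → x i = 0}
  add_mem' {x y} hx hy i hi := by simp [hx i hi, hy i hi]
  zero_mem' i _ := rfl
  smul_mem' c x hx i hi := by simp [hx i hi]

omit [DecidableEq K] in
theorem single_mem_eigSupp (w : Fin 8 → K) (i : Fin 8) :
    (Pi.single i (1 : K) : Fin 8 → K) ∈ eigSupp w (w i) := by
  intro j hj
  refine Pi.single_eq_of_ne (M := fun _ : Fin 8 => K) ?_ (1 : K)
  rintro rfl; exact hj rfl

variable {w : Fin 8 → K} {N : Matrix (Fin 8) (Fin 8) K}

omit [DecidableEq K] in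
theorem mulVec_mem_eigSupp (hc : Commute N (diagonal w)) {l : K} {x : Fin 8 → K}
    (hx : x ∈ eigSupp w l) : N *ᵥ x ∈ eigSupp w l := fun i hi => by
  show ∑ j, N i j * x j = 0
  refine Finset.sum_eq_zero fun j _ => ?_
  by_cases hj : w j = l
  · have h := congrFun (congrFun hc.eq i) j
    rw [mul_diagonal, diagonal_mul] at h
    have : N i j = 0 := by
      have h' : N i j * (w j - w i) = 0 := by linear_combination h
      exact (mul_eq_zero.1 h').resolve_right (sub_ne_zero.2 (by rw [hj]; exact Ne.symm hi))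
    rw [this, zero_mul]
  · rw [hx j hj, mul_zero]

theorem finrank_eigSupp_le (w : Fin 8 → K) (l : K) :
    Module.finrank K (eigSupp w l) ≤ (Finset.univ.filter fun i => w i = l).card := by
  classical
  let r : eigSupp w l →ₗ[K] ({i // w i = l} → K) :=
    { toFun := fun x i => x.1 i.1
      map_add' := fun _ _ => rfl
      map_smul' := fun _ _ => rfl }
  have hr : Function.Injective r := fun x y h => Subtype.ext (funext fun i => by
    by_cases hi : w i = l
    · exact congrFun h ⟨i, hi⟩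
    · rw [x.2 i hi, y.2 i hi])
  refine (LinearMap.finrank_le_finrank_of_injective hr).trans ?_
  rw [Module.finrank_pi, Fintype.card_subtype]

omit [DecidableEq K] in
theorem pow_finrank_mulVec (hc : Commute N (diagonal w)) (hn : IsNilpotent N) (l : K)
    {x : Fin 8 → K} (hx : x ∈ eigSupp w l) :
    N ^ Module.finrank K (eigSupp w l) *ᵥ x = 0 := by
  let f : Module.End K (eigSupp w l) :=
    (Matrix.toLin' N).restrict fun y hy => by rw [Matrix.toLin'_apply]; exact mulVec_mem_eigSupp hc hy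
  have hf : ∀ (n : ℕ) (y : eigSupp w l), ((f ^ n) y).1 = N ^ n *ᵥ y.1 := by
    intro n
    induction n with
    | zero => intro y; simp
    | succ n ih =>
      intro y
      rw [pow_succ, Module.End.mul_apply, ih, pow_succ, ← Matrix.mulVec_mulVec]
      congr 1
  have h := (LinearMap.charpoly_eq_X_pow_iff f).2 fun y => by
    obtain ⟨n, hN⟩ := hn
    exact ⟨n, Subtype.ext (by rw [hf, hN, Matrix.zero_mulVec]; rfl)⟩
  have h2 := LinearMap.aeval_self_charpoly f
  rw [h, map_pow, Polynomial.aeval_X] at h2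
  have h3 := congrArg Subtype.val (LinearMap.congr_fun h2 ⟨x, hx⟩)
  rwa [hf] at h3

theorem pow_mulVec_eq_zero (hc : Commute N (diagonal w)) (hn : IsNilpotent N) {l : K}
    {x : Fin 8 → K} (hx : x ∈ eigSupp w l) {k : ℕ}
    (hk : (Finset.univ.filter fun i => w i = l).card ≤ k) : N ^ k *ᵥ x = 0 := by
  obtain ⟨j, rfl⟩ := Nat.exists_eq_add_of_le ((finrank_eigSupp_le w l).trans hk)
  rw [add_comm, pow_add, ← Matrix.mulVec_mulVec, pow_finrank_mulVec hc hn l hx, Matrix.mulVec_zero]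

omit [DecidableEq K] in
theorem eq_zero_of_octB_eigSupp {w : Fin 8 → K} (hmate : ∀ i, w (octMate i) = (w i)⁻¹) {l : K}
    (hl : l⁻¹ = l) {x : Fin 8 → K} (hx : x ∈ eigSupp w l) (h : ∀ y ∈ eigSupp w l, octB x y = 0) :
    x = 0 := by
  funext i
  by_cases hi : w i = l
  · have h1 := h _ (fun j hj => Pi.single_eq_of_ne (by
      rintro rfl; exact hj (by rw [hmate, hi, hl])) _ : Pi.single (octMate i) (1 : K) ∈ eigSupp w l)
    rw [octB_single] at h1
    fin_cases i <;> simpa [octMate] using h1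
  · exact hx i hi

/-- On a non-degenerate eigenspace of even dimension the nilpotent part of an isometry has no block
of full size. -/
theorem pow_pred_mulVec_eq_zero (h2 : (2 : K) ≠ 0) {w : Fin 8 → K}
    (hmate : ∀ i, w (octMate i) = (w i)⁻¹) (u : ↥(G2 K))
    (hc : Commute (g2Mat u - 1) (diagonal w)) (hn : IsNilpotent (g2Mat u - 1)) {l : K} (hl : l⁻¹ = l)
    {k : ℕ} (hk : Even k) (hk0 : 0 < k) (hcard : (Finset.univ.filter fun i => w i = l).card ≤ k)
    {x : Fin 8 → K} (hx : x ∈ eigSupp w l) : (g2Mat u - 1) ^ (k - 1) *ᵥ x = 0 := by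
  set N := g2Mat u - 1 with hN
  set n := k - 1 with hkn
  have hodd : Odd n := Nat.Even.sub_odd hk0 hk odd_one
  have hmem : ∀ (j : ℕ) {y : Fin 8 → K}, y ∈ eigSupp w l → N ^ j *ᵥ y ∈ eigSupp w l := by
    intro j
    induction j with
    | zero => intro y hy; rwa [pow_zero, Matrix.one_mulVec]
    | succ j ih => intro y hy; rw [pow_succ', ← Matrix.mulVec_mulVec]; exact mulVec_mem_eigSupp hc (ih hy)
  have hadj : ∀ x y : Fin 8 → K, octB (N *ᵥ x) y = -octB x (N *ᵥ (g2Mat u⁻¹ *ᵥ y)) := by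
    intro x y
    have h1 : octB (g2Mat u *ᵥ x) y = octB x (g2Mat u⁻¹ *ᵥ y) := by
      have := octB_g2Mat u x (g2Mat u⁻¹ *ᵥ y)
      rwa [Matrix.mulVec_mulVec, g2Mat_mul_inv, Matrix.one_mulVec] at this
    rw [hN, Matrix.sub_mulVec, Matrix.sub_mulVec, Matrix.one_mulVec, Matrix.one_mulVec,
      Matrix.mulVec_mulVec, g2Mat_mul_inv, Matrix.one_mulVec, sub_eq_add_neg, octB_add_left,
      ← neg_one_smul K x, octB_smul_left, h1, sub_eq_add_neg, octB_add_right,
      ← neg_one_smul K (g2Mat u⁻¹ *ᵥ y), octB_smul_right]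
    ring
  have hcomm : N * g2Mat u⁻¹ = g2Mat u⁻¹ * N := by
    rw [hN, Matrix.sub_mul, Matrix.mul_sub, g2Mat_mul_inv, g2Mat_inv_mul, Matrix.one_mul,
      Matrix.mul_one]
  have hfix : ∀ {z : Fin 8 → K}, N *ᵥ z = 0 → g2Mat u⁻¹ *ᵥ z = z := by
    intro z hz
    have : g2Mat u *ᵥ z = z := by
      rw [hN, Matrix.sub_mulVec, Matrix.one_mulVec, sub_eq_zero] at hz; exact hz
    conv_lhs => rw [← this, Matrix.mulVec_mulVec, g2Mat_inv_mul, Matrix.one_mulVec]
  -- shifting a power of the nilpotent part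
  have hshift : ∀ (j : ℕ) (x y : Fin 8 → K), N ^ (j + 1) *ᵥ y = 0 →
      octB (N ^ j *ᵥ x) y = (-1) ^ j * octB x (N ^ j *ᵥ y) := by
    intro j
    induction j with
    | zero => intro x y _; simp
    | succ j ih =>
      intro x y hy
      have h0 : N *ᵥ (N ^ (j + 1) *ᵥ y) = 0 := by
        rw [Matrix.mulVec_mulVec, ← pow_succ', hy]
      have hy' : N ^ (j + 1) *ᵥ (N *ᵥ (g2Mat u⁻¹ *ᵥ y)) = 0 := by
        rw [Matrix.mulVec_mulVec, ← pow_succ, Matrix.mulVec_mulVec,
          (show Commute (N ^ (j + 1 + 1)) (g2Mat u⁻¹) from (show Commute N _ from hcomm).pow_left _).eq,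
          ← Matrix.mulVec_mulVec, hy, Matrix.mulVec_zero]
      rw [show N ^ (j + 1) *ᵥ x = N *ᵥ (N ^ j *ᵥ x) by rw [Matrix.mulVec_mulVec, ← pow_succ'],
        hadj, ih x _ hy', Matrix.mulVec_mulVec, ← pow_succ, Matrix.mulVec_mulVec,
        (show Commute (N ^ (j + 1)) (g2Mat u⁻¹) from (show Commute N _ from hcomm).pow_left _).eq,
        ← Matrix.mulVec_mulVec, hfix h0, pow_succ]
      ring
  have hkill : ∀ {y : Fin 8 → K}, y ∈ eigSupp w l → N ^ (n + 1) *ᵥ y = 0 := fun hy =>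
    pow_mulVec_eq_zero hc hn hy (by omega)
  by_contra hne
  have hz : ∀ j, n < j → ∀ {y : Fin 8 → K}, y ∈ eigSupp w l → N ^ j *ᵥ y = 0 := fun j hj _ hy =>
    pow_mulVec_eq_zero hc hn hy (by omega)
  let v : Fin (n + 1) → eigSupp w l := fun j => ⟨N ^ (j : ℕ) *ᵥ x, hmem _ hx⟩
  have hli : LinearIndependent K v := by
    rw [Fintype.linearIndependent_iff]
    intro c hsum
    have hsum' : ∑ j, c j • (N ^ (j : ℕ) *ᵥ x) = 0 := by
      simpa [v] using congrArg Subtype.val hsum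
    intro j
    obtain ⟨j, hj⟩ := j
    induction j using Nat.strong_induction_on with
    | _ j ih =>
      have h1 := congrArg (fun z => N ^ (n - j) *ᵥ z) hsum'
      simp only [Matrix.mulVec_zero, Matrix.mulVec_sum, Matrix.mulVec_smul, Matrix.mulVec_mulVec,
        ← pow_add] at h1
      rw [Finset.sum_eq_single ⟨j, hj⟩] at h1
      · rw [show n - j + j = n by omega] at h1
        exact (smul_eq_zero.1 h1).resolve_right hne
      · intro i _ hij
        rcases lt_trichotomy (i : ℕ) j with h | h | h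
        · rw [ih i h i.2, zero_smul]
        · exact absurd (Fin.ext h) hij
        · rw [hz _ (by omega) hx, smul_zero]
      · intro h; exact absurd (Finset.mem_univ _) h
  have hdim : Module.finrank K (eigSupp w l) = n + 1 := by
    refine le_antisymm ((finrank_eigSupp_le w l).trans (by omega)) ?_
    simpa using hli.fintype_card_le_finrank
  have hspan := hli.span_eq_top_of_card_eq_finrank' (by rw [Fintype.card_fin, hdim])
  refine hne (eq_zero_of_octB_eigSupp hmate hl (hmem n hx) fun y hy => ?_)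
  have hy' : (⟨y, hy⟩ : eigSupp w l) ∈ Submodule.span K (Set.range v) := by rw [hspan]; trivial
  obtain ⟨c, hc'⟩ := (Submodule.mem_span_range_iff_exists_fun K).1 hy'
  have hy2 : y = ∑ j, c j • (N ^ (j : ℕ) *ᵥ x) := by
    simpa [v] using (congrArg Subtype.val hc').symm
  have hB : ∀ j : ℕ, octB (N ^ n *ᵥ x) (N ^ j *ᵥ x) = 0 := by
    intro j
    rw [hshift n x _ (hkill (hmem j hx)), hodd.neg_one_pow, neg_one_mul, neg_eq_zero,
      Matrix.mulVec_mulVec, ← pow_add]
    rcases Nat.eq_zero_or_pos j with rfl | hj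
    · have h := hshift n x x (hkill hx)
      rw [hodd.neg_one_pow, neg_one_mul, octB_comm] at h
      rw [add_zero]
      exact (mul_eq_zero.1 (show 2 * octB x (N ^ n *ᵥ x) = 0 by linear_combination h)).resolve_left h2
    · rw [hz _ (by omega) hx, octB_zero_right]
  rw [hy2]
  generalize (Finset.univ : Finset (Fin (n + 1))) = s
  induction s using Finset.induction_on with
  | empty => simp [octB_zero_right]
  | insert a s ha ih => rw [Finset.sum_insert ha, octB_add_right, octB_smul_right, hB, ih]; ring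

omit [DecidableEq K] in
theorem isNilpotent_sub_one {p : ℕ} [Fact p.Prime] [CharP K p] {k : ℕ} {U : Matrix (Fin 8) (Fin 8) K}
    (h : U ^ p ^ k = 1) : IsNilpotent (U - 1) :=
  ⟨p ^ k, by rw [sub_pow_char_pow_of_commute _ _ (Commute.one_right U), h, one_pow, sub_self]⟩

omit [DecidableEq K] in
theorem pow_prime_pow_mulVec {p : ℕ} [Fact p.Prime] [CharP K p] (U : Matrix (Fin 8) (Fin 8) K) (j : ℕ)
    {x : Fin 8 → K} {k : ℕ} (hk : k ≤ p ^ j) (h : (U - 1) ^ k *ᵥ x = 0) :
    U ^ p ^ j *ᵥ x = x := by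
  have h1 : (U - 1) ^ p ^ j = U ^ p ^ j - 1 := by
    rw [sub_pow_char_pow_of_commute _ _ (Commute.one_right U), one_pow]
  have h2 : (U - 1) ^ p ^ j *ᵥ x = 0 := by
    obtain ⟨d, hd⟩ := Nat.exists_eq_add_of_le hk
    rw [hd, add_comm, pow_add, ← Matrix.mulVec_mulVec, h, Matrix.mulVec_zero]
  rw [h1, Matrix.sub_mulVec, Matrix.one_mulVec, sub_eq_zero] at h2
  exact h2

omit [DecidableEq K] in
/-- The eigenvectors for the eigenvalues other than one generate. -/
theorem eq_one_of_fix_eigen {a b c : K} (h : a * b * c = 1) (hne : ¬(a = 1 ∧ b = 1 ∧ c = 1))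
    (g : ↥(G2 K)) (hg : ∀ i, wOct a b c i ≠ 1 → g2Mat g *ᵥ Pi.single i 1 = Pi.single i 1) :
    g = 1 := by
  let e : Fin 8 → Fin 8 → K := fun i => Pi.single i 1
  have hprod : ∀ (i j k : Fin 8) (s : K), zornMul (e i) (e j) = s • e k → s ≠ 0 →
      g2Mat g *ᵥ e i = e i → g2Mat g *ᵥ e j = e j → g2Mat g *ᵥ e k = e k := by
    intro i j k s hk hs hi hj
    have h1 := g2Mat_zornMul g (e i) (e j)
    rw [hi, hj, hk, Matrix.mulVec_smul] at h1
    exact smul_right_injective _ hs h1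
  have he : ∀ (i j k : Fin 8), (zornMul (e i) (e j) = (1 : K) • e k ∨ zornMul (e i) (e j) = (-1 : K) • e k) →
      g2Mat g *ᵥ e i = e i → g2Mat g *ᵥ e j = e j → g2Mat g *ᵥ e k = e k := fun i j k hk =>
    hk.elim (fun hk => hprod i j k 1 hk one_ne_zero)
      (fun hk => hprod i j k (-1) hk (neg_ne_zero.2 one_ne_zero))
  have t : ∀ (i j k : Fin 8), ((∀ m, (zornMul (e i) (e j)) m = (e k) m) ∨
      ∀ m, (zornMul (e i) (e j)) m = -(e k) m) →
      g2Mat g *ᵥ e i = e i → g2Mat g *ᵥ e j = e j → g2Mat g *ᵥ e k = e k := fun i j k hk =>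
    he i j k (hk.imp (fun h => by rw [one_smul]; exact funext h)
      (fun h => by funext m; simp [h m]))
  have t12 := t 1 2 6 (by left; intro m; fin_cases m <;> simp [e, zornMul, zA, zB, dot3, cross3])
  have t23 := t 2 3 4 (by left; intro m; fin_cases m <;> simp [e, zornMul, zA, zB, dot3, cross3])
  have t31 := t 3 1 5 (by left; intro m; fin_cases m <;> simp [e, zornMul, zA, zB, dot3, cross3])
  have t45 := t 4 5 3 (by right; intro m; fin_cases m <;> simp [e, zornMul, zA, zB, dot3, cross3])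
  have t56 := t 5 6 1 (by right; intro m; fin_cases m <;> simp [e, zornMul, zA, zB, dot3, cross3])
  have t64 := t 6 4 2 (by right; intro m; fin_cases m <;> simp [e, zornMul, zA, zB, dot3, cross3])
  have t14 := t 1 4 0 (by left; intro m; fin_cases m <;> simp [e, zornMul, zA, zB, dot3, cross3])
  have t41 := t 4 1 7 (by left; intro m; fin_cases m <;> simp [e, zornMul, zA, zB, dot3, cross3])
  have tall : (g2Mat g *ᵥ e 1 = e 1 ∧ g2Mat g *ᵥ e 2 = e 2 ∧ g2Mat g *ᵥ e 3 = e 3) ∧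
      (g2Mat g *ᵥ e 4 = e 4 ∧ g2Mat g *ᵥ e 5 = e 5 ∧ g2Mat g *ᵥ e 6 = e 6) := by
    have ha : a ≠ 1 → g2Mat g *ᵥ e 1 = e 1 ∧ g2Mat g *ᵥ e 4 = e 4 := fun ha =>
      ⟨hg 1 (by simpa [wOct] using ha), hg 4 (by simpa [wOct] using ha)⟩
    have hb : b ≠ 1 → g2Mat g *ᵥ e 2 = e 2 ∧ g2Mat g *ᵥ e 5 = e 5 := fun hb =>
      ⟨hg 2 (by simpa [wOct] using hb), hg 5 (by simpa [wOct] using hb)⟩
    have hc : c ≠ 1 → g2Mat g *ᵥ e 3 = e 3 ∧ g2Mat g *ᵥ e 6 = e 6 := fun hc =>
      ⟨hg 3 (by simpa [wOct] using hc), hg 6 (by simpa [wOct] using hc)⟩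
    by_cases h1 : a = 1
    · have h2 : b ≠ 1 := fun h2 => hne ⟨h1, h2, by simpa [h1, h2] using h⟩
      have h3 : c ≠ 1 := fun h3 => hne ⟨h1, by simpa [h1, h3] using h, h3⟩
      obtain ⟨q2, q5⟩ := hb h2
      obtain ⟨q3, q6⟩ := hc h3
      exact ⟨⟨t56 q5 q6, q2, q3⟩, t23 q2 q3, q5, q6⟩
    obtain ⟨q1, q4⟩ := ha h1
    by_cases h2 : b = 1
    · have h3 : c ≠ 1 := fun h3 => h1 (by simpa [h2, h3] using h)
      obtain ⟨q3, q6⟩ := hc h3
      exact ⟨⟨q1, t64 q6 q4, q3⟩, q4, t31 q3 q1, q6⟩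
    obtain ⟨q2, q5⟩ := hb h2
    exact ⟨⟨q1, q2, t45 q4 q5⟩, q4, q5, t12 q1 q2⟩
  refine g2Mat_injective (Matrix.ext_of_mulVec_single fun i => ?_)
  rw [g2Mat_one, Matrix.one_mulVec]
  fin_cases i
  exacts [t14 tall.1.1 tall.2.1, tall.1.1, tall.1.2.1, tall.1.2.2, tall.2.1, tall.2.2.1,
    tall.2.2.2, t41 tall.2.1 tall.1.1]

theorem card_eigen (a b c : K) {l : K} (hl : l ≠ 1) :
    (Finset.univ.filter fun i => wOct a b c i = l).card = sixCount a b c l := by
  have key : ∀ i : Fin 8, (if wOct a b c i = l then 1 else 0 : ℕ) =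
      ![0, if a = l then 1 else 0, if b = l then 1 else 0, if c = l then 1 else 0,
        if a⁻¹ = l then 1 else 0, if b⁻¹ = l then 1 else 0, if c⁻¹ = l then 1 else 0, 0] i := by
    intro i
    fin_cases i <;> simp only [wOct] <;> simp [Ne.symm hl] <;> exact if_congr Iff.rfl rfl rfl
  rw [Finset.card_filter, Finset.sum_congr rfl (fun i _ => key i), Fin.sum_univ_eight]
  simp only [sixCount]
  simp
  omega

omit [DecidableEq K] in
theorem wOct_mate (a b c : K) (i : Fin 8) : wOct a b c (octMate i) = (wOct a b c i)⁻¹ := by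
  fin_cases i <;> simp [wOct, octMate]

theorem sixCount_le_three {a b c l : K} (hl : l * l ≠ 1) (hl0 : l ≠ 0) :
    sixCount a b c l ≤ 3 ∧ (3 ≤ sixCount a b c l →
      (a = l ∨ a = l⁻¹) ∧ (b = l ∨ b = l⁻¹) ∧ (c = l ∨ c = l⁻¹)) := by
  have key : ∀ x : K, ((if x = l then 1 else 0) + (if x⁻¹ = l then 1 else 0) : ℕ) ≤ 1 ∧
      (1 ≤ ((if x = l then 1 else 0) + (if x⁻¹ = l then 1 else 0) : ℕ) → x = l ∨ x = l⁻¹) := by
    intro x
    split_ifs with h1 h2 h2
    · exact absurd (by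
        rw [h1] at h2
        nth_rewrite 2 [← h2]
        exact mul_inv_cancel₀ hl0) hl
    · exact ⟨le_refl _, fun _ => Or.inl h1⟩
    · exact ⟨le_refl _, fun _ => Or.inr (by rw [← h2, inv_inv])⟩
    · exact ⟨Nat.zero_le _, fun h => absurd h (by omega)⟩
  obtain ⟨A1, A2⟩ := key a
  obtain ⟨B1, B2⟩ := key b
  obtain ⟨C1, C2⟩ := key c
  unfold sixCount
  exact ⟨by omega, fun h => ⟨A2 (by omega), B2 (by omega), C2 (by omega)⟩⟩

theorem sixCount_neg_one_le {a b c : K} (h : a * b * c = 1) (h2 : (2 : K) ≠ 0) :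
    sixCount a b c (-1) ≤ 4 := by
  have hne : (-1 : K) ≠ 1 := fun e => h2 (by linear_combination -e)
  have key : ∀ x : K, ((if x = -1 then 1 else 0) + (if x⁻¹ = -1 then 1 else 0) : ℕ) ≤ 2 ∧
      (1 ≤ ((if x = -1 then 1 else 0) + (if x⁻¹ = -1 then 1 else 0) : ℕ) → x = -1) := by
    intro x
    split_ifs with h1 h2' h2'
    · exact ⟨le_refl _, fun _ => h1⟩
    · exact ⟨by omega, fun _ => h1⟩
    · exact ⟨by omega, fun _ => by rw [← inv_inv x, h2', inv_neg, inv_one]⟩
    · exact ⟨by omega, fun h => absurd h (by omega)⟩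
  obtain ⟨A1, A2⟩ := key a
  obtain ⟨B1, B2⟩ := key b
  obtain ⟨C1, C2⟩ := key c
  by_contra hlt
  unfold sixCount at hlt
  rw [A2 (by omega), B2 (by omega), C2 (by omega)] at h
  exact hne (by linear_combination h)

end CfsgLib.G2Oct
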